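import Mathlib

/-!
# An alternating form lemma over a finite field of characteristic two

A biadditive alternating map `R : K → K → K` with `R (l a) (l b) = σ l * R a b` vanishes.  The proof
is Hua's identity `1/a = 1/(a+1) + 1/(a²+a)`.
-/

set_option autoImplicit false

namespace Cfsg.Agent.Lib.Sing.Alt

variable {K : Type*} [Field K] [CharP K 2]

theorem alt_zero [Finite K] (σ : K →+* K) (R : K → K → K)
    (hadd1 : ∀ a a' b, R (a + a') b = R a b + R a' b)
    (hadd2 : ∀ a b b', R a (b + b') = R a b + R a b')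
    (halt : ∀ a, R a a = 0)
    (hscale : ∀ l a b, l ≠ 0 → R (l * a) (l * b) = σ l * R a b) :
    ∀ a b, R a b = 0 := by
  have h2 : ∀ x : K, x + x = 0 := CharTwo.add_self_eq_zero
  have hz : ∀ b, R 0 b = 0 := by
    intro b
    have := hadd1 0 0 b
    rw [add_zero] at this
    simpa using this
  have hz' : ∀ b, R b 0 = 0 := by
    intro b
    have := hadd2 b 0 0
    rw [add_zero] at this
    simpa using this
  set g : K → K := fun b => R 1 b with hg
  have gadd : ∀ a b, g (a + b) = g a + g b := fun a b => hadd2 1 a b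
  have g0 : g 0 = 0 := hz' 1
  have g1 : g 1 = 0 := halt 1
  have hsymm : ∀ a, R a 1 = g a := by
    intro a
    have h1 := halt (a + 1)
    rw [hadd1, hadd2, hadd2, halt, halt, zero_add, add_zero] at h1
    have h3 : R a 1 + R a 1 = 0 := h2 _
    have h4 : R a 1 + R 1 a = 0 := h1
    have : R a 1 = R 1 a := by
      have := h3.trans h4.symm
      exact (add_left_cancel this)
    exact this
  have hrel : ∀ a : K, a ≠ 0 → g a = σ a * g a⁻¹ := by
    intro a ha
    rw [← hsymm a]
    have := hscale a 1 a⁻¹ ha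
    rw [mul_one, mul_inv_cancel₀ ha] at this
    exact this
  have hsq : ∀ a, g (a ^ 2) = 0 := by
    intro a
    by_cases ha0 : a = 0
    · subst ha0
      simpa using g0
    by_cases ha1 : a = 1
    · subst ha1
      simpa using g1
    have ha1' : a + 1 ≠ 0 := by
      intro h
      apply ha1
      have : a + 1 + 1 = 1 := by rw [h, zero_add]
      rw [add_assoc, h2 1, add_zero] at this
      exact this
    have hb : a ^ 2 + a ≠ 0 := by
      have : a ^ 2 + a = a * (a + 1) := by ring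
      rw [this]
      exact mul_ne_zero ha0 ha1'
    have hinv : a⁻¹ = (a + 1)⁻¹ + (a ^ 2 + a)⁻¹ := by
      have e : a ^ 2 + a = a * (a + 1) := by ring
      rw [e]
      field_simp
    have e1 := hrel a ha0
    have e2 := hrel (a + 1) ha1'
    have e3 := hrel (a ^ 2 + a) hb
    rw [hinv, gadd] at e1
    rw [gadd, g1, add_zero] at e2
    rw [gadd] at e3
    have sa : σ (a + 1) = σ a + 1 := by simp
    have sb : σ (a ^ 2 + a) = σ a * (σ a + 1) := by
      rw [map_add, map_pow]
      ring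
    rw [sa] at e2
    rw [sb] at e3
    have h4 : g (a ^ 2) = (σ a + 1) * g a + σ a * g a + g a := by
      have t : (2 : K) = 0 := CharTwo.two_eq_zero
      have e1' : g a = σ a * g (a + 1)⁻¹ + σ a * g (a ^ 2 + a)⁻¹ := by rw [e1]; ring
      have : (σ a + 1) * g a = σ a * ((σ a + 1) * g (a + 1)⁻¹) +
          (σ a * (σ a + 1)) * g (a ^ 2 + a)⁻¹ := by
        rw [e1']
        ring
      rw [← e2, ← e3] at this
      have t' : g (a ^ 2) + g a = (σ a + 1) * g a + σ a * g a := by
        rw [this]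
        have : σ a * g a + σ a * g a = 0 := h2 _
        linear_combination -this
      linear_combination t' - g a * t
    rw [h4]
    have t : (2 : K) = 0 := CharTwo.two_eq_zero
    linear_combination (g a * σ a + g a) * t
  have gz : ∀ b, g b = 0 := by
    intro b
    have : Fact (Nat.Prime 2) := ⟨Nat.prime_two⟩
    have hbij : Function.Surjective (fun x : K => x ^ 2) := by
      have hinj : Function.Injective (frobenius K 2) := frobenius_inj K 2
      have := Finite.surjective_of_injective hinj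
      intro b
      obtain ⟨x, hx⟩ := this b
      exact ⟨x, by simpa [frobenius_def] using hx⟩
    obtain ⟨x, rfl⟩ := hbij b
    exact hsq x
  intro a b
  by_cases ha : a = 0
  · subst ha
    exact hz b
  have := hscale a 1 (a⁻¹ * b) ha
  rw [mul_one, mul_inv_cancel_left₀ ha] at this
  rw [this]
  have : R 1 (a⁻¹ * b) = 0 := gz _
  rw [this, mul_zero]

/-- The relative version of `alt_zero` on a group with a coordinate `a` on the subgroup `D`. -/
theorem alt_desc [Finite K] {G : Type*} [Group G] (σ : K →+* K) (ω : K)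
    (hgen : ∀ l : K, l ≠ 0 → ∃ k : ℕ, ω ^ k = l) (D : Subgroup G)
    (a : G → K) (ha : ∀ x ∈ D, ∀ y ∈ D, a (x * y) = a x + a y) (hs : ∀ t, ∃ x ∈ D, a x = t)
    (ρ : G → G) (hρD : ∀ x ∈ D, ρ x ∈ D) (haρ : ∀ x ∈ D, a (ρ x) = ω * a x)
    (B : G → G → K)
    (hB1 : ∀ x ∈ D, ∀ x' ∈ D, ∀ y ∈ D, B (x * x') y = B x y + B x' y)
    (hB2 : ∀ x ∈ D, ∀ y ∈ D, ∀ y' ∈ D, B x (y * y') = B x y + B x y')
    (halt : ∀ x ∈ D, B x x = 0) (hrad : ∀ x ∈ D, ∀ w ∈ D, a w = 0 → B x w = 0)
    (hρ : ∀ x ∈ D, ∀ y ∈ D, B (ρ x) (ρ y) = σ ω * B x y) :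
    ∀ x ∈ D, ∀ y ∈ D, B x y = 0 := by
  have h2 : ∀ x : K, x + x = 0 := CharTwo.add_self_eq_zero
  choose s hsD hsa using hs
  have ha1 : a 1 = 0 := by
    have := ha 1 D.one_mem 1 D.one_mem
    rw [mul_one] at this
    simpa using this
  have hsymm : ∀ x ∈ D, ∀ y ∈ D, B x y = B y x := by
    intro x hx y hy
    have h1 := halt _ (D.mul_mem hx hy)
    rw [hB1 _ hx _ hy _ (D.mul_mem hx hy), hB2 _ hx _ hx _ hy, hB2 _ hy _ hx _ hy, halt _ hx,
      halt _ hy, zero_add, add_zero] at h1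
    have h3 := h2 (B x y)
    exact add_left_cancel (h3.trans h1.symm)
  -- equal coordinates give equal values
  have hdiff : ∀ x ∈ D, ∀ x' ∈ D, a x = a x' → ∃ w ∈ D, a w = 0 ∧ x' = x * w := by
    intro x hx x' hx' h
    refine ⟨x⁻¹ * x', D.mul_mem (D.inv_mem hx) hx', ?_, by group⟩
    have e1 := ha x hx (x⁻¹ * x') (D.mul_mem (D.inv_mem hx) hx')
    rw [mul_inv_cancel_left, ← h] at e1
    have : a x + 0 = a x + a (x⁻¹ * x') := by rw [add_zero]; exact e1
    exact (add_left_cancel this).symm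
  have hR : ∀ x ∈ D, ∀ x' ∈ D, ∀ y ∈ D, a x = a x' → B y x = B y x' := by
    intro x hx x' hx' y hy h
    obtain ⟨w, hw, hw0, rfl⟩ := hdiff x hx x' hx' h
    rw [hB2 _ hy _ hx _ hw, hrad _ hy _ hw hw0, add_zero]
  have hL : ∀ x ∈ D, ∀ x' ∈ D, ∀ y ∈ D, a x = a x' → B x y = B x' y := by
    intro x hx x' hx' y hy h
    rw [hsymm _ hx _ hy, hsymm _ hx' _ hy]
    exact hR x hx x' hx' y hy h
  set R : K → K → K := fun u v => B (s u) (s v) with hRdef
  have hreduce : ∀ x ∈ D, ∀ y ∈ D, B x y = R (a x) (a y) := by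
    intro x hx y hy
    show B x y = B (s (a x)) (s (a y))
    rw [hL x hx _ (hsD _) y hy (hsa _).symm, hR y hy _ (hsD _) _ (hsD _) (hsa _).symm]
  have h1 : ∀ u u' v, R (u + u') v = R u v + R u' v := by
    intro u u' v
    show B (s (u + u')) (s v) = B (s u) (s v) + B (s u') (s v)
    rw [← hB1 _ (hsD _) _ (hsD _) _ (hsD _)]
    apply hL _ (hsD _) _ (D.mul_mem (hsD _) (hsD _)) _ (hsD _)
    rw [ha _ (hsD _) _ (hsD _), hsa, hsa, hsa]
  have h2' : ∀ u v v', R u (v + v') = R u v + R u v' := by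
    intro u v v'
    show B (s u) (s (v + v')) = B (s u) (s v) + B (s u) (s v')
    rw [← hB2 _ (hsD _) _ (hsD _) _ (hsD _)]
    apply hR _ (hsD _) _ (D.mul_mem (hsD _) (hsD _)) _ (hsD _)
    rw [ha _ (hsD _) _ (hsD _), hsa, hsa, hsa]
  have h3 : ∀ u, R u u = 0 := fun u => halt _ (hsD _)
  have h4 : ∀ u v, R (ω * u) (ω * v) = σ ω * R u v := by
    intro u v
    show B (s (ω * u)) (s (ω * v)) = σ ω * B (s u) (s v)
    rw [← hρ _ (hsD _) _ (hsD _)]
    rw [hL _ (hsD _) _ (hρD _ (hsD u)) _ (hsD _) (by rw [hsa, haρ _ (hsD _), hsa]),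
      hR _ (hsD _) _ (hρD _ (hsD v)) _ (hρD _ (hsD _)) (by rw [hsa, haρ _ (hsD _), hsa])]
  have h5 : ∀ (k : ℕ) u v, R (ω ^ k * u) (ω ^ k * v) = σ (ω ^ k) * R u v := by
    intro k
    induction k with
    | zero => intro u v; simp
    | succ k ih =>
      intro u v
      have e1 : ω ^ (k + 1) * u = ω * (ω ^ k * u) := by ring
      have e2 : ω ^ (k + 1) * v = ω * (ω ^ k * v) := by ring
      rw [e1, e2, h4, ih, pow_succ, map_mul]
      ring
  have h6 : ∀ l u v, l ≠ 0 → R (l * u) (l * v) = σ l * R u v := by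
    intro l u v hl
    obtain ⟨k, rfl⟩ := hgen l hl
    exact h5 k u v
  have h7 := alt_zero σ R h1 h2' h3 h6
  intro x hx y hy
  rw [hreduce x hx y hy]
  exact h7 _ _

end Cfsg.Agent.Lib.Sing.Alt
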