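import Mathlib

/-!
# Two-groups with commuting automorphisms `α` (involutory) and `ρ` (transitive on `C_G(α)#`)

`Hyp ω α ρ c`: `c` is a coordinate on the fixed points of `α` with values in the field `K`, under
which `ρ` acts as multiplication by the generator `ω` of `Kˣ`.
-/

set_option autoImplicit false
set_option linter.unusedSectionVars false
set_option linter.style.haveILetI false

open scoped commutatorElement

namespace Cfsg.Agent.Lib.Sing.Basic

variable {K : Type*} [Field K] {G : Type*} [Group G]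

/-- `δ(x) = x⁻¹ α(x)`. -/
def del (α : G ≃* G) (x : G) : G := x⁻¹ * α x

/-- `x` lies in `N`: `δ(x)` is fixed by `α`. -/
def InN (α : G ≃* G) (x : G) : Prop := α (del α x) = del α x

structure Hyp (ω : K) (α ρ : G ≃* G) (c : G → K) : Prop where
  two : IsPGroup 2 G
  inv : ∀ x, α (α x) = x
  comm : ∀ x, α (ρ x) = ρ (α x)
  c_mul : ∀ x y, α x = x → α y = y → c (x * y) = c x + c y
  c_inj : ∀ x, α x = x → c x = 0 → x = 1
  c_surj : ∀ t, ∃ x, α x = x ∧ c x = t
  c_rho : ∀ x, α x = x → c (ρ x) = ω * c x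
  gen : ∀ l : K, l ≠ 0 → ∃ k : ℕ, ω ^ k = l

variable {ω : K} {α ρ : G ≃* G} {c : G → K}

theorem del_mul (α : G ≃* G) (x y : G) : del α (x * y) = y⁻¹ * del α x * y * del α y := by
  simp only [del, map_mul]
  group

theorem del_one (α : G ≃* G) : del α 1 = 1 := by simp [del]

theorem del_eq_one_iff {x : G} : del α x = 1 ↔ α x = x := by
  unfold del
  rw [inv_mul_eq_one]
  exact eq_comm

theorem mul_del (α : G ≃* G) (x : G) : x * del α x = α x := by simp [del]

section hyp

variable (h : Hyp ω α ρ c)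
include h

theorem Hyp.del_inverted (x : G) : α (del α x) = (del α x)⁻¹ := by
  simp only [del, map_mul, map_inv, h.inv, mul_inv_rev, inv_inv]

theorem Hyp.del_del (x : G) : del α (del α x) = (del α x * del α x)⁻¹ := by
  show (del α x)⁻¹ * α (del α x) = _
  rw [h.del_inverted]
  group

theorem Hyp.del_rho (x : G) : del α (ρ x) = ρ (del α x) := by
  simp only [del, map_mul, map_inv, h.comm]

variable [CharP K 2]

theorem Hyp.c_one : c 1 = 0 := by
  have := h.c_mul 1 1 (map_one α) (map_one α)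
  rw [mul_one] at this
  simpa using this

theorem Hyp.sq_eq_one {x : G} (hx : α x = x) : x * x = 1 := by
  apply h.c_inj _ (by rw [map_mul, hx])
  rw [h.c_mul x x hx hx]
  exact CharTwo.add_self_eq_zero _

theorem Hyp.inv_eq_self {x : G} (hx : α x = x) : x⁻¹ = x :=
  inv_eq_of_mul_eq_one_left (h.sq_eq_one hx)

theorem Hyp.c_eq {x y : G} (hx : α x = x) (hy : α y = y) (hc : c x = c y) : x = y := by
  have h1 : x * y = 1 := by
    apply h.c_inj _ (by rw [map_mul, hx, hy])
    rw [h.c_mul x y hx hy, hc]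
    exact CharTwo.add_self_eq_zero _
  have h2 := eq_inv_of_mul_eq_one_left h1
  rwa [h.inv_eq_self hy] at h2

theorem Hyp.c_ne_zero {x : G} (hx : α x = x) (h1 : x ≠ 1) : c x ≠ 0 :=
  fun h0 => h1 (h.c_inj x hx h0)

theorem Hyp.rho_fix {x : G} (hx : α x = x) : α (ρ x) = ρ x := by
  rw [h.comm, hx]

theorem Hyp.rho_iter_fix {x : G} (hx : α x = x) (k : ℕ) : α (ρ^[k] x) = ρ^[k] x := by
  induction k with
  | zero => exact hx
  | succ k ih =>
    rw [Function.iterate_succ_apply']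
    exact h.rho_fix ih

theorem Hyp.c_rho_iter {x : G} (hx : α x = x) (k : ℕ) : c (ρ^[k] x) = ω ^ k * c x := by
  induction k with
  | zero => simp
  | succ k ih =>
    rw [Function.iterate_succ_apply', h.c_rho _ (h.rho_iter_fix hx k), ih]
    ring

theorem Hyp.exists_iter {x y : G} (hx : α x = x) (hy : α y = y) (hx1 : x ≠ 1) :
    y ≠ 1 → ∃ k : ℕ, ρ^[k] x = y := by
  intro hy1
  have h1 := h.c_ne_zero hx hx1
  have h2 := h.c_ne_zero hy hy1
  obtain ⟨k, hk⟩ := h.gen (c y / c x) (div_ne_zero h2 h1)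
  refine ⟨k, h.c_eq (h.rho_iter_fix hx k) hy ?_⟩
  rw [h.c_rho_iter hx, hk]
  field_simp

variable [Finite G]

theorem Hyp.exists_fix_in (H : Subgroup G) (hH : ∀ x ∈ H, α x ∈ H) {x : G} (hx : x ∈ H)
    (hx1 : x ≠ 1) : ∃ w ∈ H, w ≠ 1 ∧ α w = w := by
  by_cases hfix : α x = x
  · exact ⟨x, hx, hx1, hfix⟩
  set y := del α x with hy
  have hyH : y ∈ H := H.mul_mem (H.inv_mem hx) (hH x hx)
  have hy1 : y ≠ 1 := fun h1 => hfix (del_eq_one_iff.mp h1)
  obtain ⟨k, hk⟩ := IsPGroup.iff_orderOf.mp h.two y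
  have hk0 : k ≠ 0 := by
    rintro rfl
    rw [pow_zero, orderOf_eq_one_iff] at hk
    exact hy1 hk
  obtain ⟨m, rfl⟩ := Nat.exists_eq_succ_of_ne_zero hk0
  refine ⟨y ^ 2 ^ m, H.pow_mem hyH _, ?_, ?_⟩
  · intro h1
    have := orderOf_dvd_of_pow_eq_one h1
    rw [hk] at this
    have h2 := Nat.pow_dvd_pow_iff_le_right (x := 2) (by norm_num) |>.mp this
    omega
  · have e : y ^ 2 ^ m * y ^ 2 ^ m = 1 := by
      rw [← pow_add, ← two_mul, ← pow_succ', ← hk, pow_orderOf_eq_one]
    rw [map_pow, h.del_inverted, inv_pow]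
    exact inv_eq_of_mul_eq_one_left e

theorem Hyp.nontrivial : Nontrivial G := by
  obtain ⟨x, hx, hx'⟩ := h.c_surj 1
  refine ⟨⟨x, 1, ?_⟩⟩
  rintro rfl
  rw [h.c_one] at hx'
  exact zero_ne_one hx'

theorem Hyp.central {x : G} (hx : α x = x) (y : G) : x * y = y * x := by
  by_cases hx1 : x = 1
  · rw [hx1, one_mul, mul_one]
  haveI : Fact (Nat.Prime 2) := ⟨Nat.prime_two⟩
  haveI := h.nontrivial
  obtain ⟨z, hz⟩ := (Subgroup.nontrivial_iff_exists_ne_one _).mp h.two.center_nontrivial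
  obtain ⟨hzc, hz1⟩ := hz
  obtain ⟨w, hw, hw1, hwf⟩ := h.exists_fix_in (Subgroup.center G) (by
    intro a ha
    rw [Subgroup.mem_center_iff] at ha ⊢
    intro g
    have := ha (α.symm g)
    have h2 := congrArg α this
    simpa using h2) hzc hz1
  obtain ⟨k, rfl⟩ := h.exists_iter hwf hx hw1 hx1
  have hc : ρ^[k] w ∈ Subgroup.center G := by
    induction k with
    | zero => exact hw
    | succ k ih =>
      have hxk : ρ^[k] w ≠ 1 := by
        intro h1
        apply hx1
        rw [Function.iterate_succ_apply', h1, map_one]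
      rw [Function.iterate_succ_apply']
      have ih' := ih (h.rho_iter_fix hwf k) hxk
      rw [Subgroup.mem_center_iff] at ih' ⊢
      intro g
      have := ih' (ρ.symm g)
      have h2 := congrArg ρ this
      simpa using h2
  exact (Subgroup.mem_center_iff.mp hc y).symm

theorem Hyp.del_mul_fix {x z : G} (hz : α z = z) : del α (x * z) = del α x := by
  rw [del_mul, del_eq_one_iff.mpr hz, mul_one]
  have hc := h.central hz (del α x)
  calc z⁻¹ * del α x * z = z⁻¹ * (del α x * z) := by group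
    _ = z⁻¹ * (z * del α x) := by rw [hc]
    _ = del α x := by group

theorem Hyp.del_fix_mul {x z : G} (hz : α z = z) : del α (z * x) = del α x := by
  rw [del_mul, del_eq_one_iff.mpr hz, mul_one, inv_mul_cancel, one_mul]

omit h in
theorem InN_of_fix {x : G} (hx : α x = x) : InN α x := by
  unfold InN
  rw [del_eq_one_iff.mpr hx, map_one]

theorem Hyp.del_mul_of_InN {x : G} (hx : InN α x) (y : G) : del α (x * y) = del α x * del α y := by
  rw [del_mul]
  have hc := h.central hx y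
  calc y⁻¹ * del α x * y * del α y = y⁻¹ * (del α x * y) * del α y := by group
    _ = y⁻¹ * (y * del α x) * del α y := by rw [hc]
    _ = del α x * del α y := by group

theorem Hyp.fix_mul {x y : G} (hx : α x = x) (hy : α y = y) : α (x * y) = x * y := by
  rw [map_mul, hx, hy]

theorem Hyp.InN_mul {x y : G} (hx : InN α x) (hy : InN α y) : InN α (x * y) := by
  unfold InN
  rw [h.del_mul_of_InN hx]
  exact h.fix_mul hx hy

theorem Hyp.e_mul {x y : G} (hx : InN α x) (hy : InN α y) :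
    c (del α (x * y)) = c (del α x) + c (del α y) := by
  rw [h.del_mul_of_InN hx]
  exact h.c_mul _ _ hx hy

theorem Hyp.del_inv_of_InN {x : G} (hx : InN α x) : del α x⁻¹ = (del α x)⁻¹ := by
  have h1 : x⁻¹ * x = 1 := inv_mul_cancel x
  have h2 := h.del_mul_of_InN (x := x) hx x⁻¹
  rw [mul_inv_cancel, del_one] at h2
  exact (eq_inv_of_mul_eq_one_right h2.symm)

theorem Hyp.InN_inv {x : G} (hx : InN α x) : InN α x⁻¹ := by
  unfold InN
  rw [h.del_inv_of_InN hx, map_inv, hx]

omit h in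
theorem InN_one : InN α (1 : G) := InN_of_fix (map_one α)

/-- The subgroup `N`. -/
def Hyp.Nsub : Subgroup G where
  carrier := {x | InN α x}
  mul_mem' := fun hx hy => h.InN_mul hx hy
  one_mem' := InN_one
  inv_mem' := fun hx => h.InN_inv hx

/-- The subgroup `C`. -/
def Hyp.Csub : Subgroup G where
  carrier := {x | α x = x}
  mul_mem' := fun hx hy => h.fix_mul hx hy
  one_mem' := map_one α
  inv_mem' := fun {x} hx => by
    show α x⁻¹ = x⁻¹
    rw [map_inv, hx]

theorem Hyp.InN_rho {x : G} (hx : InN α x) : InN α (ρ x) := by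
  unfold InN
  rw [h.del_rho]
  exact h.rho_fix hx

theorem Hyp.e_rho {x : G} (hx : InN α x) : c (del α (ρ x)) = ω * c (del α x) := by
  rw [h.del_rho]
  exact h.c_rho _ hx

theorem Hyp.InN_rho_iter {x : G} (hx : InN α x) (k : ℕ) : InN α (ρ^[k] x) := by
  induction k with
  | zero => exact hx
  | succ k ih =>
    rw [Function.iterate_succ_apply']
    exact h.InN_rho ih

theorem Hyp.e_rho_iter {x : G} (hx : InN α x) (k : ℕ) :
    c (del α (ρ^[k] x)) = ω ^ k * c (del α x) := by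
  induction k with
  | zero => simp
  | succ k ih =>
    rw [Function.iterate_succ_apply', h.e_rho (h.InN_rho_iter hx k), ih]
    ring

theorem Hyp.e_zero_iff {w : G} (hw : InN α w) : c (del α w) = 0 ↔ α w = w := by
  constructor
  · intro h0
    exact del_eq_one_iff.mp (h.c_inj _ hw h0)
  · intro h0
    rw [del_eq_one_iff.mpr h0, h.c_one]

theorem Hyp.e_ne_zero {w : G} (hw : InN α w) (h1 : α w ≠ w) : c (del α w) ≠ 0 :=
  fun h0 => h1 ((h.e_zero_iff hw).mp h0)

theorem Hyp.InN_eq {x y : G} (hx : InN α x) (hy : InN α y) (he : c (del α x) = c (del α y)) :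
    α (x⁻¹ * y) = x⁻¹ * y := by
  rw [← h.e_zero_iff (h.InN_mul (h.InN_inv hx) hy), h.e_mul (h.InN_inv hx) hy,
    h.del_inv_of_InN hx, h.inv_eq_self hx, he]
  exact CharTwo.add_self_eq_zero _

theorem Hyp.exists_N_in (H : Subgroup G) (hH : ∀ x ∈ H, α x ∈ H) {x : G} (hx : x ∈ H)
    (hx1 : α x ≠ x) : ∃ w ∈ H, α w ≠ w ∧ InN α w := by
  by_cases hfix : InN α x
  · exact ⟨x, hx, hx1, hfix⟩
  set y := del α x with hy
  have hyH : y ∈ H := H.mul_mem (H.inv_mem hx) (hH x hx)
  have hfix' : α y ≠ y := hfix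
  obtain ⟨k, hk⟩ := IsPGroup.iff_orderOf.mp h.two y
  have hP : ∃ j : ℕ, α (y ^ 2 ^ j) = y ^ 2 ^ j := ⟨k, by
    rw [← hk, pow_orderOf_eq_one, map_one]⟩
  classical
  have hj0 : Nat.find hP ≠ 0 := by
    intro h0
    have := Nat.find_spec hP
    rw [h0] at this
    simp only [pow_zero, pow_one] at this
    exact hfix' this
  obtain ⟨j, hj⟩ := Nat.exists_eq_succ_of_ne_zero hj0
  have hnf : α (y ^ 2 ^ j) ≠ y ^ 2 ^ j := Nat.find_min hP (by omega)
  have hf := Nat.find_spec hP
  rw [hj] at hf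
  refine ⟨y ^ 2 ^ j, H.pow_mem hyH _, hnf, ?_⟩
  have hinv : α (y ^ 2 ^ j) = (y ^ 2 ^ j)⁻¹ := by
    rw [map_pow, h.del_inverted, inv_pow]
  set w := y ^ 2 ^ j with hw
  have hw2 : y ^ 2 ^ j.succ = w * w := by
    rw [Nat.pow_succ, pow_mul, pow_two]
  rw [hw2] at hf
  unfold InN
  have e : del α w = (w * w)⁻¹ := by
    unfold del
    rw [hinv]
    group
  rw [e, map_inv, hf]

theorem Hyp.e_surj (hne : ∃ x, α x ≠ x) (t : K) : ∃ w, InN α w ∧ c (del α w) = t := by
  by_cases ht : t = 0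
  · exact ⟨1, InN_one, by rw [del_one, h.c_one, ht]⟩
  obtain ⟨x, hx⟩ := hne
  obtain ⟨w, -, hw, hw'⟩ := h.exists_N_in ⊤ (fun _ _ => Subgroup.mem_top _) (Subgroup.mem_top x) hx
  have h0 := h.e_ne_zero hw' hw
  obtain ⟨k, hk⟩ := h.gen (t / c (del α w)) (div_ne_zero ht h0)
  refine ⟨ρ^[k] w, h.InN_rho_iter hw' k, ?_⟩
  rw [h.e_rho_iter hw', hk]
  field_simp

theorem Hyp.N_le (P : Subgroup G) (hC : ∀ x, α x = x → x ∈ P) (hρ : ∀ x ∈ P, ρ x ∈ P) {w₀ : G}
    (hw₀ : w₀ ∈ P) (hN : InN α w₀) (hne : α w₀ ≠ w₀) {w : G} (hw : InN α w) : w ∈ P := by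
  by_cases hf : α w = w
  · exact hC w hf
  have h0 := h.e_ne_zero hN hne
  have h1 := h.e_ne_zero hw hf
  obtain ⟨k, hk⟩ := h.gen (c (del α w) / c (del α w₀)) (div_ne_zero h1 h0)
  have hP : ∀ j : ℕ, ρ^[j] w₀ ∈ P := by
    intro j
    induction j with
    | zero => exact hw₀
    | succ j ih =>
      rw [Function.iterate_succ_apply']
      exact hρ _ ih
  have hN1 := h.InN_rho_iter hN k
  have he : c (del α (ρ^[k] w₀)) = c (del α w) := by
    rw [h.e_rho_iter hN, hk]
    field_simp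
  have hz := h.InN_eq hN1 hw he
  have hzP := hC _ hz
  have e : w = ρ^[k] w₀ * ((ρ^[k] w₀)⁻¹ * w) := by group
  rw [e]
  exact P.mul_mem (hP k) hzP

end hyp

end Cfsg.Agent.Lib.Sing.Basic
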