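import Cfsg.Agent.Lib.Sing.Coord
import Cfsg.Agent.Lib.Sing.L3

/-!
# The hyperbolic case: `G` is the upper unitriangular group
-/

set_option autoImplicit false
set_option linter.unusedSectionVars false
set_option linter.style.haveILetI false

namespace Cfsg.Agent.Lib.Sing.CaseL

open Cfsg.Agent.Lib.Sing.Basic Cfsg.Agent.Lib.Sing.Ext Cfsg.Agent.Lib.Sing.L3

variable {K : Type*} [Field K] [Fintype K] [CharP K 2] {G : Type*} [Group G] [Finite G]
variable {ω : K} {α ρ : G ≃* G} {c : G → K}

theorem caseL (h : Hyp ω α ρ c) (u v : G → K) (g : K)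
    (umul : ∀ x y, u (x * y) = u x + u y) (vmul : ∀ x y, v (x * y) = v x + v y)
    (ker1 : ∀ x, u x = 0 → v x = 0 → α x = x) (ker2 : ∀ z, α z = z → u z = 0 ∧ v z = 0)
    (surj : ∀ s t, ∃ x, u x = s ∧ v x = t)
    (sq : ∀ x, c (x * x) = v x ^ 2 + u x * v x + g * u x ^ 2)
    {ν : K} (hν : ν ^ 2 + ν = g) : Nonempty (G ≃* Hs K) := by
  have h2 : ∀ s : K, s + s = 0 := CharTwo.add_self_eq_zero
  let w : G → K × K := fun x => (v x + ν * u x, v x + (ν + 1) * u x)
  let w' : Hs K → K × K := fun x => (U x, V x)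
  have w0 : ∀ x, w x = 0 → u x = 0 ∧ v x = 0 := by
    intro x hx
    have h1 : v x + ν * u x = 0 := congrArg Prod.fst hx
    have h3 : v x + (ν + 1) * u x = 0 := congrArg Prod.snd hx
    have h4 : u x = 0 := by linear_combination h3 - h1
    refine ⟨h4, ?_⟩
    rw [h4] at h1
    simpa using h1
  have w1 : ∀ x, u x = 0 → v x = 0 → w x = 0 := by
    intro x h1 h3
    apply Prod.ext
    · show v x + ν * u x = 0
      rw [h1, h3]
      simp
    · show v x + (ν + 1) * u x = 0
      rw [h1, h3]
      simp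
  obtain ⟨e, -⟩ := ext_iso (P := G) (P' := Hs K) (W := K × K) (A := K)
    (fun a => Prod.ext (h2 _) (h2 _)) h2 w w'
    (fun x y => by
      apply Prod.ext
      · show v (x * y) + ν * u (x * y) = (v x + ν * u x) + (v y + ν * u y)
        rw [umul, vmul]
        ring
      · show v (x * y) + (ν + 1) * u (x * y) = (v x + (ν + 1) * u x) + (v y + (ν + 1) * u y)
        rw [umul, vmul]
        ring)
    (fun x y => Prod.ext (U_mul x y) (V_mul x y))
    (by
      rintro ⟨s, t⟩
      obtain ⟨x, hx, hx'⟩ := surj (s + t) (s + ν * (s + t))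
      refine ⟨x, Prod.ext ?_ ?_⟩
      · show v x + ν * u x = s
        rw [hx, hx']
        have := h2 (ν * (s + t))
        linear_combination this
      · show v x + (ν + 1) * u x = t
        rw [hx, hx']
        have h3 := h2 (ν * (s + t))
        have h4 := h2 s
        linear_combination h3 + h4)
    (by
      rintro ⟨s, t⟩
      obtain ⟨x, hx, hx', -⟩ := exists_coord (K := K) s t 0
      exact ⟨x, Prod.ext hx hx'⟩)
    c T
    (fun z y hz hy => by
      obtain ⟨a1, a2⟩ := w0 z hz
      obtain ⟨b1, b2⟩ := w0 y hy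
      exact h.c_mul _ _ (ker1 z a1 a2) (ker1 y b1 b2))
    (fun z y hz hy => by
      have hz1 : U z = 0 := congrArg Prod.fst hz
      rw [T_mul, hz1, zero_mul, add_zero])
    (fun z hz h0 => by
      obtain ⟨a1, a2⟩ := w0 z hz
      exact h.c_inj z (ker1 z a1 a2) h0)
    (fun z hz h0 => eq_one_of (congrArg Prod.fst hz) (congrArg Prod.snd hz) h0)
    (fun a => by
      obtain ⟨z, hz, hz'⟩ := h.c_surj a
      obtain ⟨a1, a2⟩ := ker2 z hz
      exact ⟨z, w1 z a1 a2, hz'⟩)
    (fun a => by
      obtain ⟨x, hx, hx', hx''⟩ := exists_coord (K := K) 0 0 a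
      exact ⟨x, Prod.ext hx hx', hx''⟩)
    (fun z hz y => by
      obtain ⟨a1, a2⟩ := w0 z hz
      exact h.central (ker1 z a1 a2) y)
    (fun z hz y => central_of (congrArg Prod.fst hz) (congrArg Prod.snd hz) y)
    (fun x x' hxx => by
      have h3 : v x + ν * u x = U x' := congrArg Prod.fst hxx
      have h4 : v x + (ν + 1) * u x = V x' := congrArg Prod.snd hxx
      rw [sq, T_mul, h2, zero_add, ← h3, ← h4, ← hν]
      have t : (2 : K) = 0 := CharTwo.two_eq_zero
      linear_combination (-(ν * u x * v x)) * t)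
  exact ⟨e⟩

end Cfsg.Agent.Lib.Sing.CaseL
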