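import Cfsg.Agent.Lib.Sing.Coord
import Cfsg.Agent.Lib.Classical.Herm.SzModel

/-!
# The anisotropic case: `G` is a Sylow `2`-subgroup of `PSU₃`
-/

set_option autoImplicit false
set_option linter.unusedSectionVars false
set_option linter.style.haveILetI false

namespace Cfsg.Agent.Lib.Sing.CaseU

open Cfsg
open Cfsg.Agent.Lib.Sing.Basic Cfsg.Agent.Lib.Sing.Ext
open Cfsg.Agent.Lib.Classical.Herm.Basic Cfsg.Agent.Lib.Classical.Herm.Tv
open Cfsg.Agent.Lib.Classical.Herm.Subfield Cfsg.Agent.Lib.Classical.Herm.SzModel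

variable {K F : Type*} [Field K] [Fintype K] [CharP K 2] [Field F] [Fintype F] [CharP F 2]
variable {G : Type*} [Group G] [Finite G]
variable {ω : K} {α ρ : G ≃* G} {c : G → K}

/-- Two non-values of `ν ↦ ν² + ν` differ by a value. -/
theorem exists_root_add {g y : K} (hg : ∀ ν : K, ν ^ 2 + ν ≠ g) (hy : ∀ ν : K, ν ^ 2 + ν ≠ y) :
    ∃ ν : K, ν ^ 2 + ν = g + y := by
  classical
  have h2 : ∀ s : K, s + s = 0 := CharTwo.add_self_eq_zero
  have hsq2 : ∀ s t : K, (s + t) ^ 2 = s ^ 2 + t ^ 2 := by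
    intro s t
    have : (s + t) ^ 2 = s ^ 2 + t ^ 2 + (s * t + s * t) := by ring
    rw [this, h2, add_zero]
  let P : K →+ K :=
    { toFun := fun ν => ν ^ 2 + ν
      map_zero' := by simp
      map_add' := fun a b => by
        rw [hsq2]
        ring }
  have hP : ∀ x, x ∈ P.ker ↔ x ^ 2 + x = 0 := fun x => AddMonoidHom.mem_ker
  have h0 : (0 : K) ∈ P.ker := (hP 0).2 (by simp)
  have h1 : (1 : K) ∈ P.ker := (hP 1).2 (by rw [one_pow]; exact h2 1)
  have hcard : Nat.card P.ker = 2 := by
    rw [Nat.card_eq_two_iff]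
    refine ⟨⟨0, h0⟩, ⟨1, h1⟩, ?_, ?_⟩
    · intro h3
      exact zero_ne_one (congrArg Subtype.val h3)
    · ext ⟨x, hx⟩
      simp only [Set.mem_insert_iff, Set.mem_singleton_iff, Set.mem_univ, iff_true, Subtype.mk.injEq]
      have h3 : x * (x + 1) = 0 := by
        have := (hP x).1 hx
        linear_combination this
      rcases mul_eq_zero.mp h3 with h4 | h4
      · exact Or.inl h4
      · right
        have := h2 1
        linear_combination h4 - this
  have hidx : P.range.index = 2 := by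
    have h3 := P.ker.card_mul_index
    have h4 := P.range.index_mul_card
    rw [AddSubgroup.index_ker, hcard] at h3
    have hpos : 0 < Nat.card P.range := Nat.card_pos
    have : P.range.index * Nat.card P.range = 2 * Nat.card P.range := by rw [h4, h3]
    exact Nat.eq_of_mul_eq_mul_right hpos this
  have hg' : g ∉ P.range := by
    rintro ⟨ν, hν⟩
    exact hg ν hν
  have hy' : y ∉ P.range := by
    rintro ⟨ν, hν⟩
    exact hy ν hν
  have h5 : g + y ∈ P.range := by
    rw [AddSubgroup.add_mem_iff_of_index_two hidx]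
    tauto
  obtain ⟨ν, hν⟩ := h5
  exact ⟨ν, hν⟩

theorem caseU (h : Hyp ω α ρ c) (u v : G → K) (g : K)
    (umul : ∀ x y, u (x * y) = u x + u y) (vmul : ∀ x y, v (x * y) = v x + v y)
    (ker1 : ∀ x, u x = 0 → v x = 0 → α x = x) (ker2 : ∀ z, α z = z → u z = 0 ∧ v z = 0)
    (surj : ∀ s t, ∃ x, u x = s ∧ v x = t)
    (sq : ∀ x, c (x * x) = v x ^ 2 + u x * v x + g * u x ^ 2)
    (hroot : ∀ ν : K, ν ^ 2 + ν ≠ g) {q : ℕ} (hKq : Fintype.card K = q)
    (hFq : Fintype.card F = q ^ 2) (h2q : 2 ∣ q) (S : Sylow 2 (PSU 3 F q)) :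
    Nonempty (G ≃* S) := by
  classical
  have h2 : ∀ s : F, s + s = 0 := CharTwo.add_self_eq_zero
  have h2K : ∀ s : K, s + s = 0 := CharTwo.add_self_eq_zero
  have t2 : (2 : F) = 0 := CharTwo.two_eq_zero
  have hq : q ≠ 0 := by
    have := two_le_q hFq
    omega
  obtain ⟨j, hj1, hj2⟩ := exists_fixed_embedding hFq hKq
  have hjinj : Function.Injective j := j.injective
  obtain ⟨τ, hτ⟩ := exists_trace_eq hFq (c := 1) (one_pow q)
  have hτq : τ ^ q = τ + 1 := by
    linear_combination hτ - τ * t2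
  have hsqq : ∀ s : F, (s ^ 2) ^ q = (s ^ q) ^ 2 := by
    intro s
    rw [← pow_mul, ← pow_mul, mul_comm]
  obtain ⟨y₀, hy₀⟩ := hj2 (τ ^ 2 + τ) (by
    rw [pow_q_add hFq, hsqq, hτq]
    linear_combination τ * t2 + t2)
  have hy₀' : ∀ ν : K, ν ^ 2 + ν ≠ y₀ := by
    intro ν hν
    have h3 : j ν ^ 2 + j ν = τ ^ 2 + τ := by
      rw [← hy₀, ← hν, map_add, map_pow]
    have h4 : (j ν + τ) * (j ν + τ + 1) = 0 := by
      linear_combination h3 + (j ν * τ) * t2 + τ ^ 2 * t2 + τ * t2
    have hne : (1 : F) ≠ 0 := one_ne_zero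
    rcases mul_eq_zero.mp h4 with h5 | h5
    · have h6 : j ν = τ := by linear_combination h5 - τ * t2
      have h7 := hj1 ν
      rw [h6, hτq] at h7
      apply hne
      linear_combination h7
    · have h6 : j ν = τ + 1 := by linear_combination h5 - τ * t2 - t2
      have h7 := hj1 ν
      rw [h6, pow_q_add hFq, hτq, one_pow] at h7
      apply hne
      linear_combination -h7 + t2
  obtain ⟨ν, hν⟩ := exists_root_add hroot hy₀'
  set θ : F := τ + j ν with hθ
  have hθq : θ ^ q = θ + 1 := by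
    rw [hθ, pow_q_add hFq, hτq, hj1]
    ring
  have hθ2 : θ ^ 2 + θ = j g := by
    have e1 : g = ν ^ 2 + ν + y₀ := by
      rw [hν]
      have := h2K y₀
      linear_combination -this
    rw [e1, map_add, map_add, map_pow, hy₀, hθ]
    linear_combination (τ * j ν - j ν ^ 0 * 0) * t2
  have hA0 : ∀ a b : K, j a + j b * θ = 0 → a = 0 ∧ b = 0 := by
    intro a b hab
    have hb : b = 0 := by
      by_contra hb
      have hjb : j b ≠ 0 := fun h0 => hb (hjinj (by rw [h0, map_zero]))
      have e1 : θ = j (a / b) := by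
        rw [map_div₀]
        field_simp
        linear_combination hab - j a * t2
      have h3 := hθq
      rw [e1, hj1] at h3
      have h4 : (1 : F) = 0 := by linear_combination -h3
      exact one_ne_zero h4
    rw [hb, map_zero, zero_mul, add_zero] at hab
    exact ⟨hjinj (by rw [hab, map_zero]), hb⟩
  have hAsurj : ∀ t : F, ∃ a b : K, j a + j b * θ = t := by
    let Φ : K × K → F := fun p => j p.1 + j p.2 * θ
    have hinj : Function.Injective Φ := by
      rintro ⟨a, b⟩ ⟨a', b'⟩ hab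
      have h3 : Φ (a, b) = j a + j b * θ := rfl
      have h4 : Φ (a', b') = j a' + j b' * θ := rfl
      have h5 : j (a + a') + j (b + b') * θ = 0 := by
        rw [h3, h4] at hab
        rw [map_add, map_add]
        linear_combination hab + j a' * t2 + j b' * θ * t2
      obtain ⟨h6, h7⟩ := hA0 _ _ h5
      have h8 : a = a' := by
        have := h2K a'
        linear_combination h6 - this
      have h9 : b = b' := by
        have := h2K b'
        linear_combination h7 - this
      rw [h8, h9]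
    have hbij : Function.Bijective Φ := by
      rw [Fintype.bijective_iff_injective_and_card]
      refine ⟨hinj, ?_⟩
      rw [Fintype.card_prod, hKq, hFq, pow_two]
    intro t
    obtain ⟨⟨a, b⟩, hab⟩ := hbij.2 t
    exact ⟨a, b, hab⟩
  obtain ⟨A, B, hm⟩ := exists_model_PSU hFq h2q S
  let c' : S → K := fun z => Function.invFun j (B z)
  have hc' : ∀ z, A z = 0 → j (c' z) = B z := by
    intro z hz
    obtain ⟨y, hy⟩ := hj2 (B z) (hm.fixed_B hz hq)
    show j (Function.invFun j (B z)) = B z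
    rw [← hy, Function.leftInverse_invFun hjinj y]
  let AQ : G → F := fun x => j (v x) + j (u x) * θ
  have AQ0 : ∀ x, AQ x = 0 → u x = 0 ∧ v x = 0 := by
    intro x hx
    obtain ⟨h3, h4⟩ := hA0 _ _ hx
    exact ⟨h4, h3⟩
  have hA1 : ∀ x, A x = 0 → A x = 0 := fun _ h => h
  obtain ⟨e, -⟩ := ext_iso (P := G) (P' := S) (W := F) (A := K) h2 h2K AQ A
    (fun x y => by
      show j (v (x * y)) + j (u (x * y)) * θ = (j (v x) + j (u x) * θ) + (j (v y) + j (u y) * θ)
      rw [umul, vmul, map_add, map_add]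
      ring)
    hm.A_mul
    (fun t => by
      obtain ⟨a, b, hab⟩ := hAsurj t
      obtain ⟨x, hx, hx'⟩ := surj b a
      refine ⟨x, ?_⟩
      show j (v x) + j (u x) * θ = t
      rw [hx, hx', hab])
    (hm.exists_A hFq)
    c c'
    (fun z y hz hy => by
      obtain ⟨a1, a2⟩ := AQ0 z hz
      obtain ⟨b1, b2⟩ := AQ0 y hy
      exact h.c_mul _ _ (ker1 z a1 a2) (ker1 y b1 b2))
    (fun z y hz hy => by
      apply hjinj
      rw [hc' _ (by rw [hm.A_mul, hz, hy, add_zero]), map_add, hc' z hz, hc' y hy, hm.B_mul, hy,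
        zero_mul, add_zero])
    (fun z hz h0 => by
      obtain ⟨a1, a2⟩ := AQ0 z hz
      exact h.c_inj z (ker1 z a1 a2) h0)
    (fun z hz h0 => by
      rw [hm.eq_one_iff hq]
      refine ⟨hz, ?_⟩
      rw [← hc' z hz, h0, map_zero])
    (fun a => by
      obtain ⟨z, hz, hz'⟩ := h.c_surj a
      obtain ⟨a1, a2⟩ := ker2 z hz
      refine ⟨z, ?_, hz'⟩
      show j (v z) + j (u z) * θ = 0
      rw [a1, a2]
      simp)
    (fun a => by
      obtain ⟨x, hx, hx'⟩ := hm.exists_of_fixed hFq (hj1 a)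
      refine ⟨x, hx, ?_⟩
      apply hjinj
      rw [hc' x hx, hx'])
    (fun z hz y => by
      obtain ⟨a1, a2⟩ := AQ0 z hz
      exact h.central (ker1 z a1 a2) y)
    (fun z hz y => by
      have h3 := (hm.mem_center_iff hFq).2 hz
      exact (Subgroup.mem_center_iff.mp h3 y).symm)
    (fun x x' hxx => by
      apply hjinj
      rw [hc' _ (hm.A_sq x'), hm.B_sq, ← hxx, sq, map_add, map_add, map_mul, map_mul, map_pow,
        map_pow]
      show _ = (j (v x) + j (u x) * θ) ^ (q + 1)
      have e : (j (v x) + j (u x) * θ) ^ (q + 1) =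
          (j (v x) + j (u x) * θ) ^ q * (j (v x) + j (u x) * θ) := pow_succ _ _
      rw [e, pow_q_add hFq, mul_pow, hj1, hj1, hθq, ← hθ2]
      linear_combination (-(j (v x) * j (u x) * θ)) * t2)
  exact ⟨e⟩

end Cfsg.Agent.Lib.Sing.CaseU
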