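import Cfsg.Agent.Lib.Sing.Basic

/-!
# Passing to the quotient by the fixed points of `α`
-/

set_option autoImplicit false
set_option linter.unusedSectionVars false
set_option linter.style.haveILetI false

open scoped commutatorElement

namespace Cfsg.Agent.Lib.Sing.Quot

open Cfsg.Agent.Lib.Sing.Basic

variable {K : Type*} [Field K] {G : Type*} [Group G]
variable {ω : K} {α ρ : G ≃* G} {c : G → K}

variable (h : Hyp ω α ρ c) [CharP K 2] [Finite G]

theorem Hyp.Csub_normal : h.Csub.Normal := ⟨fun n hn g => by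
  have h1 := h.central hn g
  have h2 : g * n * g⁻¹ = n := by
    rw [← h1]
    group
  rw [h2]
  exact hn⟩

instance instNormal : h.Csub.Normal := Hyp.Csub_normal h

include h

theorem map_alpha : h.Csub.map α.toMonoidHom = h.Csub := by
  ext x
  constructor
  · rintro ⟨y, hy, rfl⟩
    show α (α y) = α y
    have hy' : α y = y := hy
    rw [hy', hy']
  · intro hx
    exact ⟨x, hx, hx⟩

theorem map_rho : h.Csub.map ρ.toMonoidHom = h.Csub := by
  ext x
  constructor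
  · rintro ⟨y, hy, rfl⟩
    exact h.rho_fix hy
  · intro hx
    refine ⟨ρ.symm x, ?_, by simp⟩
    have hx' : α x = x := hx
    show α (ρ.symm x) = ρ.symm x
    apply ρ.injective
    rw [← h.comm]
    simpa using hx'

/-- The involution on the quotient. -/
noncomputable def αb : G ⧸ h.Csub ≃* G ⧸ h.Csub := QuotientGroup.congr h.Csub h.Csub α (map_alpha h)

/-- The automorphism `ρ` on the quotient. -/
noncomputable def ρb : G ⧸ h.Csub ≃* G ⧸ h.Csub := QuotientGroup.congr h.Csub h.Csub ρ (map_rho h)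

/-- The coordinate on the quotient. -/
noncomputable def cb : G ⧸ h.Csub → K := fun y => c (del α (Quotient.out y))

theorem αb_mk (x : G) : αb h (x : G ⧸ h.Csub) = ((α x : G) : G ⧸ h.Csub) := rfl

theorem ρb_mk (x : G) : ρb h (x : G ⧸ h.Csub) = ((ρ x : G) : G ⧸ h.Csub) := rfl

theorem cb_mk (x : G) : cb h (x : G ⧸ h.Csub) = c (del α x) := by
  obtain ⟨z, hz⟩ := QuotientGroup.mk_out_eq_mul h.Csub x
  show c (del α (Quotient.out (x : G ⧸ h.Csub))) = _
  rw [hz, h.del_mul_fix z.2]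

theorem mk_eq_iff {x y : G} : (x : G ⧸ h.Csub) = (y : G ⧸ h.Csub) ↔ α (x⁻¹ * y) = x⁻¹ * y :=
  QuotientGroup.eq

theorem mk_eq_one_iff {x : G} : (x : G ⧸ h.Csub) = 1 ↔ α x = x :=
  QuotientGroup.eq_one_iff x

theorem fixb_iff {x : G} : αb h (x : G ⧸ h.Csub) = x ↔ InN α x := by
  rw [αb_mk, eq_comm, mk_eq_iff h]
  rfl

theorem delb_mk (x : G) : del (αb h) (x : G ⧸ h.Csub) = ((del α x : G) : G ⧸ h.Csub) := by
  unfold del
  rw [αb_mk]
  rfl

theorem InNb_iff {x : G} : InN (αb h) (x : G ⧸ h.Csub) ↔ InN α (del α x) := by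
  unfold InN
  rw [delb_mk h]
  exact fixb_iff h

theorem commb_iff {x y : G} :
    (x : G ⧸ h.Csub) * (y : G ⧸ h.Csub) = (y : G ⧸ h.Csub) * x ↔ α ⁅x, y⁆ = ⁅x, y⁆ := by
  rw [← mk_eq_one_iff h (x := ⁅x, y⁆)]
  have e : ((⁅x, y⁆ : G) : G ⧸ h.Csub) = (x : G ⧸ h.Csub) * y * (x : G ⧸ h.Csub)⁻¹ * (y : G ⧸ h.Csub)⁻¹ := rfl
  rw [e]
  constructor
  · intro h1
    rw [h1]
    group
  · intro h1
    have : (x : G ⧸ h.Csub) * y = (x : G ⧸ h.Csub) * y * (x : G ⧸ h.Csub)⁻¹ * (y : G ⧸ h.Csub)⁻¹ * (y * x) := by group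
    rw [this, h1, one_mul]

theorem hyp_quot (hne : ∃ x, α x ≠ x) : Hyp ω (αb h) (ρb h) (cb h) where
  two := h.two.to_quotient _
  inv := by
    intro y
    obtain ⟨x, rfl⟩ := QuotientGroup.mk_surjective y
    rw [αb_mk, αb_mk, h.inv]
  comm := by
    intro y
    obtain ⟨x, rfl⟩ := QuotientGroup.mk_surjective y
    rw [ρb_mk, αb_mk, αb_mk, ρb_mk, h.comm]
  c_mul := by
    intro x y hx hy
    obtain ⟨x, rfl⟩ := QuotientGroup.mk_surjective x
    obtain ⟨y, rfl⟩ := QuotientGroup.mk_surjective y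
    rw [← QuotientGroup.mk_mul, cb_mk, cb_mk, cb_mk]
    exact h.e_mul ((fixb_iff h).1 hx) ((fixb_iff h).1 hy)
  c_inj := by
    intro x hx h0
    obtain ⟨x, rfl⟩ := QuotientGroup.mk_surjective x
    rw [cb_mk] at h0
    rw [mk_eq_one_iff h]
    exact (h.e_zero_iff ((fixb_iff h).1 hx)).1 h0
  c_surj := by
    intro t
    obtain ⟨w, hw, hw'⟩ := h.e_surj hne t
    exact ⟨w, (fixb_iff h).2 hw, by rw [cb_mk, hw']⟩
  c_rho := by
    intro x hx
    obtain ⟨x, rfl⟩ := QuotientGroup.mk_surjective x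
    rw [ρb_mk, cb_mk, cb_mk]
    exact h.e_rho ((fixb_iff h).1 hx)
  gen := h.gen

/-- Commutators with elements of `N` lie in `C`. -/
theorem comm_fix_of_N {w : G} (hw : InN α w) (x : G) : α ⁅x, w⁆ = ⁅x, w⁆ := by
  by_cases hne : ∃ x, α x ≠ x
  · have h1 := (hyp_quot h hne).central ((fixb_iff h).2 hw) (x : G ⧸ h.Csub)
    exact (commb_iff h).1 h1.symm
  · push Not at hne
    exact hne _

theorem card_quot_lt [Finite K] : Nat.card (G ⧸ h.Csub) < Nat.card G := by
  have h1 := Subgroup.card_eq_card_quotient_mul_card_subgroup h.Csub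
  have h2 : 1 < Nat.card h.Csub := by
    obtain ⟨x, hx, hx'⟩ := h.c_surj 1
    have hx1 : x ≠ 1 := by
      rintro rfl
      rw [h.c_one] at hx'
      exact zero_ne_one hx'
    haveI : Nontrivial h.Csub := ⟨⟨⟨x, hx⟩, 1, fun e => hx1 (congrArg Subtype.val e)⟩⟩
    exact Finite.one_lt_card
  rw [h1]
  have h3 : 0 < Nat.card (G ⧸ h.Csub) := Nat.card_pos
  nlinarith

end Cfsg.Agent.Lib.Sing.Quot
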