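import Cfsg.Agent.Lib.Sing.Alt
import Cfsg.Agent.Lib.Sing.Quot

/-!
# Class two: commutators and squares in the fixed points of `α`
-/

set_option autoImplicit false
set_option linter.unusedSectionVars false
set_option linter.style.haveILetI false

open scoped commutatorElement

namespace Cfsg.Agent.Lib.Sing.Cl

open Cfsg.Agent.Lib.Sing.Basic Cfsg.Agent.Lib.Sing.Quot Cfsg.Agent.Lib.Sing.Alt

section pure

variable {G : Type*} [Group G]

theorem comm_mul_left {x y z : G} (hc : ∀ t, ⁅y, z⁆ * t = t * ⁅y, z⁆) :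
    ⁅x * y, z⁆ = ⁅x, z⁆ * ⁅y, z⁆ := by
  have e : ⁅x * y, z⁆ = x * ⁅y, z⁆ * (z * x⁻¹ * z⁻¹) := by
    simp only [commutatorElement_def]
    group
  rw [e, ← hc x, ← hc ⁅x, z⁆]
  simp only [commutatorElement_def]
  group

theorem comm_mul_right {x y z : G} (hc : ∀ t, ⁅x, z⁆ * t = t * ⁅x, z⁆) :
    ⁅x, y * z⁆ = ⁅x, y⁆ * ⁅x, z⁆ := by
  have e : ⁅x, y * z⁆ = ⁅x, y⁆ * (y * ⁅x, z⁆ * y⁻¹) := by
    simp only [commutatorElement_def]
    group
  rw [e, ← hc y, mul_inv_cancel_right]

theorem comm_eq_of_central {x y z : G} (hz : ∀ t, z * t = t * z) : ⁅x, y * z⁆ = ⁅x, y⁆ := by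
  have h1 : ⁅x, z⁆ = 1 := commutatorElement_eq_one_iff_mul_comm.mpr (hz x).symm
  rw [comm_mul_right (by rw [h1]; simp), h1, mul_one]

end pure

variable {K : Type*} [Field K] {G : Type*} [Group G]
variable {ω : K} {α ρ : G ≃* G} {c : G → K}

variable (h : Hyp ω α ρ c) [CharP K 2] [Finite G]

include h

theorem c_comm_left {x x' y : G} (h1 : α ⁅x, y⁆ = ⁅x, y⁆) (h2 : α ⁅x', y⁆ = ⁅x', y⁆) :
    c ⁅x * x', y⁆ = c ⁅x, y⁆ + c ⁅x', y⁆ := by
  rw [comm_mul_left (h.central h2), h.c_mul _ _ h1 h2]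

theorem c_comm_right {x y y' : G} (h1 : α ⁅x, y⁆ = ⁅x, y⁆) (h2 : α ⁅x, y'⁆ = ⁅x, y'⁆) :
    c ⁅x, y * y'⁆ = c ⁅x, y⁆ + c ⁅x, y'⁆ := by
  rw [comm_mul_right (h.central h2), h.c_mul _ _ h1 h2]

theorem c_comm_rho {x y : G} (h1 : α ⁅x, y⁆ = ⁅x, y⁆) : c ⁅ρ x, ρ y⁆ = ω * c ⁅x, y⁆ := by
  rw [← map_commutatorElement, h.c_rho _ h1]

theorem c_comm_self (x : G) : c ⁅x, x⁆ = 0 := by
  rw [commutatorElement_self, h.c_one]

theorem comm_of_c_zero {x y : G} (h1 : α ⁅x, y⁆ = ⁅x, y⁆) (h0 : c ⁅x, y⁆ = 0) : x * y = y * x :=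
  commutatorElement_eq_one_iff_mul_comm.mp (h.c_inj _ h1 h0)

theorem c_comm_of_comm {x y : G} (h1 : x * y = y * x) : c ⁅x, y⁆ = 0 := by
  rw [commutatorElement_eq_one_iff_mul_comm.mpr h1, h.c_one]

variable [Finite K]

/-- `N` is abelian. -/
theorem N_comm {w w' : G} (hw : InN α w) (hw' : InN α w') : w * w' = w' * w := by
  by_cases hne : ∃ x, α x ≠ x
  · have hfix := fun (x : G) {y : G} (hy : InN α y) => comm_fix_of_N h hy x
    have key := alt_desc (RingHom.id K) ω h.gen h.Nsub (fun x => c (del α x))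
      (fun x hx y hy => h.e_mul hx hy)
      (fun t => by
        obtain ⟨x, hx, hx'⟩ := h.e_surj hne t
        exact ⟨x, hx, hx'⟩)
      ρ (fun x hx => h.InN_rho hx) (fun x hx => h.e_rho hx)
      (fun (x y : G) => c ⁅x, y⁆)
      (fun x hx x' hx' y hy => c_comm_left h (hfix x hy) (hfix x' hy))
      (fun x hx y hy y' hy' => c_comm_right h (hfix x hy) (hfix x hy'))
      (fun x _ => c_comm_self h x)
      (fun x hx w hw h0 => by
        have hf := (h.e_zero_iff hw).1 h0
        exact c_comm_of_comm h (h.central hf x).symm)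
      (fun x hx y hy => c_comm_rho h (hfix x hy))
      w hw w' hw'
    exact comm_of_c_zero h (hfix w hw') key
  · push Not at hne
    exact h.central (hne w) w'

/-- If `[G,G] ≤ C` and `N` is central then `G` is abelian. -/
theorem abelian_of_N_central (hcomm : ∀ x y : G, α ⁅x, y⁆ = ⁅x, y⁆)
    (hN : ∀ w, InN α w → ∀ y, w * y = y * w) (x y : G) : x * y = y * x := by
  classical
  by_cases hne : ∃ x, α x ≠ x
  swap
  · push Not at hne
    exact h.central (hne x) y
  have hsqc : ∀ x y : G, (x * x) * y = y * (x * x) := by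
    intro x y
    have h1 : ⁅x * x, y⁆ = 1 := by
      rw [comm_mul_left (h.central (hcomm x y)), h.sq_eq_one (hcomm x y)]
    exact commutatorElement_eq_one_iff_mul_comm.mp h1
  have hN2 : ∀ x, InN α (x * x * del α x) := by
    intro x
    unfold InN
    have e : del α (x * x * del α x) = ⁅(del α x)⁻¹, x⁻¹⁆ := by
      rw [del_mul, del_mul, h.del_del]
      simp only [commutatorElement_def]
      group
    rw [e]
    exact hcomm _ _
  have hδc : ∀ x y : G, del α x * y = y * del α x := by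
    intro x y
    have e : del α x = (x * x)⁻¹ * (x * x * del α x) := by group
    have h1 := hN _ (hN2 x) y
    have h2 := hsqc x y
    have h3 : (x * x)⁻¹ * y = y * (x * x)⁻¹ := by
      have : (x * x)⁻¹ * ((x * x) * y) * (x * x)⁻¹ = (x * x)⁻¹ * (y * (x * x)) * (x * x)⁻¹ := by
        rw [h2]
      simpa [mul_assoc] using this.symm
    rw [e, mul_assoc, h1, ← mul_assoc, h3, mul_assoc]
  have hdel : ∀ x y, del α (x * y) = del α x * del α y := by
    intro x y
    rw [del_mul]
    have := hδc x y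
    calc y⁻¹ * del α x * y * del α y = y⁻¹ * (del α x * y) * del α y := by group
      _ = y⁻¹ * (y * del α x) * del α y := by rw [this]
      _ = del α x * del α y := by group
  let D : G →* G := MonoidHom.mk' (del α) hdel
  have hDc : ∀ x, D x = del α x := fun _ => rfl
  -- nilpotency
  have hnil : ∀ (j : ℕ) (x : G), (del α x) ^ 2 ^ j = 1 → (del α)^[j + 1] x = 1 := by
    intro j
    induction j with
    | zero =>
      intro x hx
      simpa using hx
    | succ j ih =>
      intro x hx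
      rw [Function.iterate_succ_apply]
      apply ih
      rw [h.del_del, inv_pow, ← pow_two, ← pow_mul, ← pow_succ', hx, inv_one]
  obtain ⟨r, hr⟩ := IsPGroup.iff_card.mp h.two
  have hP : ∃ t : ℕ, ∀ x : G, (del α)^[t] x = 1 := by
    refine ⟨r + 1, fun x => hnil r x ?_⟩
    rw [← hr]
    exact pow_card_eq_one'
  have hP0 : Nat.find hP ≠ 0 := by
    intro h0
    have h1 := Nat.find_spec hP
    rw [h0] at h1
    obtain ⟨x, hx⟩ := hne
    apply hx
    have e1 : x = 1 := h1 x
    rw [e1, map_one]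
  obtain ⟨t, ht⟩ := Nat.exists_eq_succ_of_ne_zero hP0
  have ht1 : ∀ x : G, (del α)^[t + 1] x = 1 := by
    have := Nat.find_spec hP
    rw [ht] at this
    exact this
  have ht0 : ¬ ∀ x : G, (del α)^[t] x = 1 := Nat.find_min hP (by omega)
  have htpos : t ≠ 0 := by
    rintro rfl
    obtain ⟨x, hx⟩ := hne
    apply hx
    exact del_eq_one_iff.mp (ht1 x)
  have hfixt : ∀ x : G, α ((del α)^[t] x) = (del α)^[t] x := by
    intro x
    have := ht1 x
    rw [Function.iterate_succ_apply'] at this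
    exact del_eq_one_iff.mp this
  have hitm : ∀ (s : ℕ) (x y : G), (del α)^[s] (x * y) = (del α)^[s] x * (del α)^[s] y := by
    intro s x y
    exact iterate_map_mul D s x y
  have hitρ : ∀ (s : ℕ) (x : G), (del α)^[s] (ρ x) = ρ ((del α)^[s] x) := by
    intro s
    induction s with
    | zero => intro x; rfl
    | succ s ih =>
      intro x
      rw [Function.iterate_succ_apply', ih, h.del_rho, Function.iterate_succ_apply']
  let a : G → K := fun x => c ((del α)^[t] x)
  have ha : ∀ x y, a (x * y) = a x + a y := by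
    intro x y
    show c _ = c _ + c _
    rw [hitm]
    exact h.c_mul _ _ (hfixt x) (hfixt y)
  have haρ : ∀ x, a (ρ x) = ω * a x := by
    intro x
    show c _ = ω * c _
    rw [hitρ]
    exact h.c_rho _ (hfixt x)
  have haρi : ∀ (k : ℕ) x, a (ρ^[k] x) = ω ^ k * a x := by
    intro k x
    induction k with
    | zero => simp
    | succ k ih =>
      rw [Function.iterate_succ_apply', haρ, ih]
      ring
  have has : ∀ s, ∃ x, a x = s := by
    intro s
    push Not at ht0
    obtain ⟨x₀, hx₀⟩ := ht0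
    have hne0 : a x₀ ≠ 0 := h.c_ne_zero (hfixt x₀) hx₀
    by_cases hs : s = 0
    · refine ⟨1, ?_⟩
      have : a 1 = a 1 + a 1 := by
        have := ha 1 1
        rwa [mul_one] at this
      rw [hs]
      simpa using this
    obtain ⟨k, hk⟩ := h.gen (s / a x₀) (div_ne_zero hs hne0)
    refine ⟨ρ^[k] x₀, ?_⟩
    rw [haρi, hk]
    field_simp
  -- the kernel of `a` is the range of `D`
  let φ : G →* Multiplicative K :=
    MonoidHom.mk' (fun x => Multiplicative.ofAdd (a x)) (fun x y => by rw [ha]; rfl)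
  have hφ : ∀ x, x ∈ φ.ker ↔ a x = 0 := by
    intro x
    rw [MonoidHom.mem_ker]
    exact ofAdd_eq_one
  have hle : D.range ≤ φ.ker := by
    rintro _ ⟨x, rfl⟩
    rw [hφ, hDc]
    show c ((del α)^[t] (del α x)) = 0
    rw [← Function.iterate_succ_apply, ht1, h.c_one]
  have hcC : Nat.card D.ker = Nat.card K := by
    apply Nat.card_eq_of_bijective (fun z : D.ker => c z.1)
    constructor
    · rintro ⟨z, hz⟩ ⟨z', hz'⟩ e
      have hz1 : del α z = 1 := hz
      have hz2 : del α z' = 1 := hz'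
      exact Subtype.ext (h.c_eq (del_eq_one_iff.mp hz1) (del_eq_one_iff.mp hz2) e)
    · intro s
      obtain ⟨z, hz, hz'⟩ := h.c_surj s
      exact ⟨⟨z, del_eq_one_iff.mpr hz⟩, hz'⟩
  have hφr : Nat.card φ.range = Nat.card K := by
    have : φ.range = ⊤ := by
      rw [MonoidHom.range_eq_top]
      intro s
      obtain ⟨x, hx⟩ := has (Multiplicative.toAdd s)
      exact ⟨x, by show Multiplicative.ofAdd (a x) = s; rw [hx]; rfl⟩
    rw [this, Subgroup.card_top]
    rfl
  have hc1 := D.ker.card_mul_index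
  have hc2 := φ.ker.card_mul_index
  rw [Subgroup.index_ker, hcC] at hc1
  rw [Subgroup.index_ker, hφr] at hc2
  have hKpos : 0 < Nat.card K := Nat.card_pos
  have hcard : Nat.card φ.ker = Nat.card D.range := by
    have : Nat.card φ.ker * Nat.card K = Nat.card D.range * Nat.card K := by
      rw [hc2, ← hc1]
      ring
    exact Nat.eq_of_mul_eq_mul_right hKpos this
  have heq : D.range = φ.ker := Subgroup.eq_of_le_of_card_ge hle (by rw [hcard])
  have hcen : ∀ w, a w = 0 → ∀ y, w * y = y * w := by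
    intro w hw y
    have h1 : w ∈ D.range := by
      rw [heq, hφ]
      exact hw
    obtain ⟨z, rfl⟩ := h1
    exact hδc z y
  have key := alt_desc (RingHom.id K) ω h.gen ⊤ a
      (fun x _ y _ => ha x y)
      (fun s => by
        obtain ⟨x, hx⟩ := has s
        exact ⟨x, Subgroup.mem_top _, hx⟩)
      ρ (fun x _ => Subgroup.mem_top _) (fun x _ => haρ x)
      (fun (x y : G) => c ⁅x, y⁆)
      (fun x _ x' _ y _ => c_comm_left h (hcomm x y) (hcomm x' y))
      (fun x _ y _ y' _ => c_comm_right h (hcomm x y) (hcomm x y'))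
      (fun x _ => c_comm_self h x)
      (fun x _ w _ h0 => c_comm_of_comm h (hcen w h0 x).symm)
      (fun x _ y _ => c_comm_rho h (hcomm x y))
      x (Subgroup.mem_top _) y (Subgroup.mem_top _)
  exact comm_of_c_zero h (hcomm x y) key

end Cfsg.Agent.Lib.Sing.Cl
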