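import Mathlib

/-!
# Extending homomorphisms to elementary abelian groups; uniqueness of central extensions
-/

set_option autoImplicit false
set_option linter.style.haveILetI false

namespace Cfsg.Agent.Lib.Sing.Ext

variable {A : Type*} [AddCommGroup A]

theorem exists_add_ext {X : Type*} [Group X] (hX : ∀ x : X, x * x = 1) (Y : Subgroup X)
    (hA : ∀ a : A, a + a = 0) (f : X → A) (hf : ∀ y ∈ Y, ∀ y' ∈ Y, f (y * y') = f y + f y') :
    ∃ g : X → A, (∀ x x', g (x * x') = g x + g x') ∧ ∀ y ∈ Y, g y = f y := by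
  classical
  have hinv : ∀ x : X, x⁻¹ = x := fun x => inv_eq_of_mul_eq_one_left (hX x)
  have hcomm : ∀ x y : X, x * y = y * x := by
    intro x y
    have h1 : (x * y)⁻¹ = x * y := hinv _
    rw [mul_inv_rev, hinv, hinv] at h1
    exact h1.symm
  letI cg : CommGroup X := { (inferInstance : Group X) with mul_comm := hcomm }
  letI mV : Module (ZMod 2) (Additive X) := AddCommGroup.zmodModule (fun x => by
    rw [two_nsmul]
    exact hX (Additive.toMul x))
  letI mA : Module (ZMod 2) A := AddCommGroup.zmodModule (fun a => by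
    rw [two_nsmul]
    exact hA a)
  let Y' : Submodule (ZMod 2) (Additive X) := AddSubgroup.toZModSubmodule 2 (Subgroup.toAddSubgroup Y)
  have hmem : ∀ y : Additive X, y ∈ Y' ↔ Additive.toMul y ∈ Y := fun y => Iff.rfl
  have hf1 : f 1 = 0 := by
    have := hf 1 Y.one_mem 1 Y.one_mem
    rw [mul_one] at this
    simpa using this
  let f0 : ↥Y' →+ A :=
    { toFun := fun y => f (Additive.toMul y.1)
      map_zero' := hf1
      map_add' := fun y y' => hf _ ((hmem _).1 y.2) _ ((hmem _).1 y'.2) }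
  let f' : ↥Y' →ₗ[ZMod 2] A := AddMonoidHom.toZModLinearMap 2 f0
  obtain ⟨g, hg⟩ := LinearMap.exists_extend f'
  refine ⟨fun x => g (Additive.ofMul x), ?_, ?_⟩
  · intro x x'
    show g (Additive.ofMul x + Additive.ofMul x') = _
    rw [map_add]
  · intro y hy
    have h1 := LinearMap.congr_fun hg ⟨Additive.ofMul y, (hmem _).2 hy⟩
    exact h1

/-- Extending an additive map from a subgroup `Γ₀` containing all squares, when squares die and
the kernel is central. -/
theorem ext_central {Γ : Type*} [Group Γ] (Γ₀ : Subgroup Γ) (t : Γ → A) (hA : ∀ a : A, a + a = 0)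
    (ht : ∀ y ∈ Γ₀, ∀ y' ∈ Γ₀, t (y * y') = t y + t y')
    (hsq : ∀ g, g * g ∈ Γ₀ ∧ t (g * g) = 0)
    (hcen : ∀ z ∈ Γ₀, t z = 0 → ∀ g, z * g = g * z) :
    ∃ T : Γ → A, (∀ x y, T (x * y) = T x + T y) ∧ ∀ y ∈ Γ₀, T y = t y := by
  classical
  have ht1 : t 1 = 0 := by
    have := ht 1 Γ₀.one_mem 1 Γ₀.one_mem
    rw [mul_one] at this
    simpa using this
  let Δ : Subgroup Γ :=
    { carrier := {z | z ∈ Γ₀ ∧ t z = 0}
      mul_mem' := by
        rintro a b ⟨ha, ha'⟩ ⟨hb, hb'⟩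
        exact ⟨Γ₀.mul_mem ha hb, by rw [ht _ ha _ hb, ha', hb', add_zero]⟩
      one_mem' := ⟨Γ₀.one_mem, ht1⟩
      inv_mem' := by
        rintro a ⟨ha, ha'⟩
        refine ⟨Γ₀.inv_mem ha, ?_⟩
        have := ht _ ha _ (Γ₀.inv_mem ha)
        rw [mul_inv_cancel, ht1, ha', zero_add] at this
        exact this.symm }
  haveI hΔ : Δ.Normal := ⟨by
    rintro z ⟨hz, hz'⟩ g
    rw [← hcen z hz hz' g, mul_inv_cancel_right]
    exact ⟨hz, hz'⟩⟩
  let Y : Subgroup (Γ ⧸ Δ) := Γ₀.map (QuotientGroup.mk' Δ)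
  let f : Γ ⧸ Δ → A := fun x => t (Quotient.out x)
  have hf : ∀ z ∈ Γ₀, f (z : Γ ⧸ Δ) = t z := by
    intro z hz
    obtain ⟨h, hh⟩ := QuotientGroup.mk_out_eq_mul Δ z
    show t (Quotient.out (z : Γ ⧸ Δ)) = t z
    rw [hh, ht _ hz _ h.2.1, h.2.2, add_zero]
  have hX : ∀ x : Γ ⧸ Δ, x * x = 1 := by
    intro x
    obtain ⟨g, rfl⟩ := QuotientGroup.mk_surjective x
    rw [← QuotientGroup.mk_mul, QuotientGroup.eq_one_iff]
    exact hsq g
  obtain ⟨g, hg, hg'⟩ := exists_add_ext hX Y hA f (by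
    rintro _ ⟨a, ha, rfl⟩ _ ⟨b, hb, rfl⟩
    show f ((a : Γ ⧸ Δ) * (b : Γ ⧸ Δ)) = f (a : Γ ⧸ Δ) + f (b : Γ ⧸ Δ)
    rw [← QuotientGroup.mk_mul, hf _ (Γ₀.mul_mem ha hb), hf _ ha, hf _ hb, ht _ ha _ hb])
  refine ⟨fun x => g (x : Γ ⧸ Δ), ?_, ?_⟩
  · intro x y
    show g ((x * y : Γ) : Γ ⧸ Δ) = _
    rw [QuotientGroup.mk_mul, hg]
  · intro y hy
    show g (y : Γ ⧸ Δ) = t y
    have h1 := hg' (y : Γ ⧸ Δ) ⟨y, hy, rfl⟩
    rw [h1, hf _ hy]

/-- Two central extensions with the same squaring map are isomorphic. -/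
theorem ext_iso {P P' W : Type*} [Group P] [Group P'] [AddCommGroup W]
    (hW : ∀ w : W, w + w = 0) (hA : ∀ a : A, a + a = 0)
    (v : P → W) (v' : P' → W) (hv : ∀ x y, v (x * y) = v x + v y) (hv' : ∀ x y, v' (x * y) = v' x + v' y)
    (sv : Function.Surjective v) (sv' : Function.Surjective v')
    (c : P → A) (c' : P' → A)
    (cm : ∀ z y, v z = 0 → v y = 0 → c (z * y) = c z + c y)
    (cm' : ∀ z y, v' z = 0 → v' y = 0 → c' (z * y) = c' z + c' y)
    (ci : ∀ z, v z = 0 → c z = 0 → z = 1) (ci' : ∀ z, v' z = 0 → c' z = 0 → z = 1)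
    (cs : ∀ a, ∃ z, v z = 0 ∧ c z = a) (cs' : ∀ a, ∃ z, v' z = 0 ∧ c' z = a)
    (cen : ∀ z, v z = 0 → ∀ y, z * y = y * z) (cen' : ∀ z, v' z = 0 → ∀ y, z * y = y * z)
    (sq : ∀ x x', v x = v' x' → c (x * x) = c' (x' * x')) :
    ∃ e : P ≃* P', ∀ x, v' (e x) = v x := by
  classical
  have v1 : v 1 = 0 := by
    have := hv 1 1
    rw [mul_one] at this
    simpa using this
  have v1' : v' 1 = 0 := by
    have := hv' 1 1
    rw [mul_one] at this
    simpa using this
  have vinv : ∀ x, v x⁻¹ = v x := by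
    intro x
    have h1 := hv x x⁻¹
    rw [mul_inv_cancel, v1] at h1
    have h2 := hW (v x)
    have : v x + v x⁻¹ = v x + v x := by rw [← h1, h2]
    exact add_left_cancel this
  have vinv' : ∀ x, v' x⁻¹ = v' x := by
    intro x
    have h1 := hv' x x⁻¹
    rw [mul_inv_cancel, v1'] at h1
    have h2 := hW (v' x)
    have : v' x + v' x⁻¹ = v' x + v' x := by rw [← h1, h2]
    exact add_left_cancel this
  have c1 : c 1 = 0 := by
    have := cm 1 1 v1 v1
    rw [mul_one] at this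
    simpa using this
  have c1' : c' 1 = 0 := by
    have := cm' 1 1 v1' v1'
    rw [mul_one] at this
    simpa using this
  let Γ : Subgroup (P × P') :=
    { carrier := {g | v g.1 = v' g.2}
      mul_mem' := by
        rintro a b ha hb
        show v (a.1 * b.1) = v' (a.2 * b.2)
        rw [hv, hv', ha, hb]
      one_mem' := by
        show v 1 = v' 1
        rw [v1, v1']
      inv_mem' := by
        rintro a ha
        show v a.1⁻¹ = v' a.2⁻¹
        rw [vinv, vinv']
        exact ha }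
  let Γ₀ : Subgroup Γ :=
    { carrier := {g | v g.1.1 = 0}
      mul_mem' := by
        rintro a b ha hb
        show v (a.1.1 * b.1.1) = 0
        rw [hv, ha, hb, add_zero]
      one_mem' := v1
      inv_mem' := by
        rintro a ha
        show v a.1.1⁻¹ = 0
        rw [vinv]
        exact ha }
  have h2' : ∀ g : Γ, g ∈ Γ₀ → v' g.1.2 = 0 := by
    intro g hg
    have h1 : v g.1.1 = v' g.1.2 := g.2
    rw [← h1]
    exact hg
  let t : Γ → A := fun g => c g.1.1 + c' g.1.2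
  obtain ⟨T, hT, hT0⟩ := ext_central Γ₀ t hA (by
      intro y hy y' hy'
      show c (y.1.1 * y'.1.1) + c' (y.1.2 * y'.1.2) = c y.1.1 + c' y.1.2 + (c y'.1.1 + c' y'.1.2)
      rw [cm _ _ hy hy', cm' _ _ (h2' y hy) (h2' y' hy')]
      abel) (by
      intro g
      have hv0 : v g.1.1 + v g.1.1 = 0 := hW _
      have hv1 : v' g.1.2 + v' g.1.2 = 0 := hW _
      refine ⟨?_, ?_⟩
      · show v (g.1.1 * g.1.1) = 0
        rw [hv, hv0]
      · show c (g.1.1 * g.1.1) + c' (g.1.2 * g.1.2) = 0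
        rw [sq _ _ g.2]
        exact hA _) (by
      intro z hz _ g
      apply Subtype.ext
      apply Prod.ext
      · exact cen _ hz _
      · exact cen' _ (h2' z hz) _)
  have T1 : T 1 = 0 := by
    have := hT 1 1
    rw [mul_one] at this
    simpa using this
  have Tinv : ∀ g, T g⁻¹ = T g := by
    intro g
    have h1 := hT g g⁻¹
    rw [mul_inv_cancel, T1] at h1
    have h2 := hA (T g)
    have : T g + T g⁻¹ = T g + T g := by rw [← h1, h2]
    exact add_left_cancel this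
  -- elements `(1, z)` and `(z, 1)`
  let r' : ∀ z : P', v' z = 0 → Γ := fun z hz => ⟨(1, z), by show v 1 = v' z; rw [v1, hz]⟩
  let r : ∀ z : P, v z = 0 → Γ := fun z hz => ⟨(z, 1), by show v z = v' 1; rw [v1', hz]⟩
  have Tr' : ∀ z hz, T (r' z hz) = c' z := by
    intro z hz
    rw [hT0 _ v1]
    show c 1 + c' z = c' z
    rw [c1, zero_add]
  have Tr : ∀ z hz, T (r z hz) = c z := by
    intro z hz
    rw [hT0 _ hz]
    show c z + c' 1 = c z
    rw [c1', add_zero]
  have hex : ∀ x : P, ∃ x' : P', ∃ h : v x = v' x', T ⟨(x, x'), h⟩ = 0 := by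
    intro x
    obtain ⟨y, hy⟩ := sv' (v x)
    have hg : v x = v' y := hy.symm
    obtain ⟨z, hz, hz'⟩ := cs' (T ⟨(x, y), hg⟩)
    have hg2 : v x = v' (y * z) := by rw [hv', hz, add_zero, hy]
    refine ⟨y * z, hg2, ?_⟩
    have e : (⟨(x, y * z), hg2⟩ : Γ) = ⟨(x, y), hg⟩ * r' z hz := by
      apply Subtype.ext
      apply Prod.ext
      · exact (mul_one x).symm
      · rfl
    rw [e, hT, Tr' z hz, hz']
    exact hA _
  choose e he he' using hex
  have huniq : ∀ x x', ∀ h : v x = v' x', T ⟨(x, x'), h⟩ = 0 → x' = e x := by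
    intro x x' h hT'
    have hz : v' (x'⁻¹ * e x) = 0 := by
      rw [hv', vinv', ← h, he]
      exact hW _
    have h3 : T (r' _ hz) = 0 := by
      have e1 : r' _ hz = (⟨(x, x'), h⟩ : Γ)⁻¹ * ⟨(x, e x), he x⟩ := by
        apply Subtype.ext
        apply Prod.ext
        · exact (inv_mul_cancel x).symm
        · rfl
      rw [e1, hT, Tinv, hT', he', add_zero]
    rw [Tr' _ hz] at h3
    have h4 := ci' _ hz h3
    exact (inv_mul_eq_one.mp h4)
  have hmul : ∀ x y, e (x * y) = e x * e y := by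
    intro x y
    symm
    have hh : v (x * y) = v' (e x * e y) := by rw [hv, hv', he, he]
    apply huniq _ _ hh
    have e1 : (⟨(x * y, e x * e y), hh⟩ : Γ) = ⟨(x, e x), he x⟩ * ⟨(y, e y), he y⟩ := rfl
    rw [e1, hT, he', he', add_zero]
  have hinj : Function.Injective e := by
    intro x y hxy
    have hz : v (x⁻¹ * y) = 0 := by
      rw [hv, vinv, he, he, hxy]
      exact hW _
    have h3 : T (r _ hz) = 0 := by
      have e1 : r _ hz = (⟨(x, e x), he x⟩ : Γ)⁻¹ * ⟨(y, e y), he y⟩ := by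
        apply Subtype.ext
        apply Prod.ext
        · rfl
        · show (1 : P') = (e x)⁻¹ * e y
          rw [hxy, inv_mul_cancel]
      rw [e1, hT, Tinv, he', he', add_zero]
    rw [Tr _ hz] at h3
    exact inv_mul_eq_one.mp (ci _ hz h3)
  have hsurj : Function.Surjective e := by
    intro x'
    obtain ⟨y, hy⟩ := sv (v' x')
    obtain ⟨z, hz, hz'⟩ := cs (T ⟨(y, x'), hy⟩)
    have hh : v (y * z) = v' x' := by rw [hv, hz, add_zero, hy]
    refine ⟨y * z, ?_⟩
    symm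
    apply huniq _ _ hh
    have e1 : (⟨(y * z, x'), hh⟩ : Γ) = ⟨(y, x'), hy⟩ * r z hz := by
      apply Subtype.ext
      apply Prod.ext
      · rfl
      · exact (mul_one x').symm
    rw [e1, hT, Tr z hz, hz']
    exact hA _
  exact ⟨MulEquiv.ofBijective (MonoidHom.mk' e hmul) ⟨hinj, hsurj⟩, fun x => he x |>.symm⟩

end Cfsg.Agent.Lib.Sing.Ext
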