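import Cfsg.Agent.Lib.Sing.Core
import Cfsg.Agent.Lib.Sing.Ext

/-!
# Coordinates on a non-abelian `G`

`G/C ≅ K²` through additive maps `u, v` such that the squaring map is the binary quadratic form
`v² + u v + g u²`.
-/

set_option autoImplicit false
set_option linter.unusedSectionVars false
set_option linter.style.haveILetI false

open scoped commutatorElement

namespace Cfsg.Agent.Lib.Sing.Coord

open Cfsg.Agent.Lib.Sing.Basic Cfsg.Agent.Lib.Sing.Quot Cfsg.Agent.Lib.Sing.Alt
open Cfsg.Agent.Lib.Sing.Cl Cfsg.Agent.Lib.Sing.Two Cfsg.Agent.Lib.Sing.Ext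

variable {K : Type*} [Field K] {G : Type*} [Group G]
variable {ω : K} {α ρ : G ≃* G} {c : G → K}

variable [CharP K 2] [Finite G] [Finite K]

theorem coords (h : Hyp ω α ρ c) (hs : Str α) (hna : ∃ x y : G, x * y ≠ y * x)
    (m : ℕ) (hm : Odd m) (hρm : ∀ x, ρ^[m] x = x) :
    ∃ (u v : G → K) (g : K),
      (∀ x y, u (x * y) = u x + u y) ∧ (∀ x y, v (x * y) = v x + v y) ∧
      (∀ x, u x = 0 → v x = 0 → α x = x) ∧ (∀ z, α z = z → u z = 0 ∧ v z = 0) ∧
      (∀ s t, ∃ x, u x = s ∧ v x = t) ∧
      (∀ x, c (x * x) = v x ^ 2 + u x * v x + g * u x ^ 2) := by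
  classical
  have hl : Cl2 α := hs.toCl2
  have h2 : ∀ s : K, s + s = 0 := CharTwo.add_self_eq_zero
  have hsq2 : ∀ s t : K, (s + t) ^ 2 = s ^ 2 + t ^ 2 := by
    intro s t
    have : (s + t) ^ 2 = s ^ 2 + t ^ 2 + (s * t + s * t) := by ring
    rw [this, h2, add_zero]
  haveI : ExpChar K 2 := ExpChar.prime Nat.prime_two
  have hfinj : Function.Injective (frobenius K 2) := frobenius_inj K 2
  have hfsurj : Function.Surjective (frobenius K 2) := Finite.surjective_of_injective hfinj
  let Fr : K ≃+* K := RingEquiv.ofBijective (frobenius K 2) ⟨hfinj, hfsurj⟩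
  let r : K → K := Fr.symm
  have hr2 : ∀ t, r t ^ 2 = t := by
    intro t
    have : Fr (Fr.symm t) = t := Fr.apply_symm_apply t
    rw [← frobenius_def]
    exact this
  have hradd : ∀ s t, r (s + t) = r s + r t := fun s t => map_add Fr.symm s t
  have hrmul : ∀ s t, r (s * t) = r s * r t := fun s t => map_mul Fr.symm s t
  have hr0 : r 0 = 0 := map_zero Fr.symm
  have hrsq : ∀ t, r (t ^ 2) = t := by
    intro t
    have : Fr t = t ^ 2 := frobenius_def 2 t
    rw [← this]
    exact Fr.symm_apply_apply t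
  have hsqinj : ∀ s t : K, s ^ 2 = t ^ 2 → s = t := by
    intro s t hst
    have := congrArg r hst
    rwa [hrsq, hrsq] at this
  have hne2 := exists_not_InN h hna
  have hne1 : ∃ x, α x ≠ x := by
    obtain ⟨x, hx⟩ := hne2
    exact ⟨x, fun h1 => hx (InN_of_fix h1)⟩
  -- the first coordinate
  set a : G → K := a0 α c with ha
  have amul : ∀ x y, a (x * y) = a x + a y := a0_mul h hl
  have arho : ∀ x, a (ρ x) = ω * a x := a0_rho h hl
  have azero : ∀ x, a x = 0 ↔ InN α x := a0_zero_iff h hl
  have asurj : ∀ t, ∃ x, a x = t := a0_surj h hl hne2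
  have arhoi : ∀ (k : ℕ) x, a (ρ^[k] x) = ω ^ k * a x := a0_rho_iter h hl
  -- the second coordinate
  obtain ⟨b₀, hb₀, hb₀N⟩ := ext_central h.Nsub (fun x => c (del α x)) h2
    (fun y hy y' hy' => h.e_mul hy hy')
    (fun g => by
      have hg := hs.sq_fix g
      refine ⟨InN_of_fix hg, ?_⟩
      exact (h.e_zero_iff (InN_of_fix hg)).2 hg)
    (fun z hz hz0 g => h.central ((h.e_zero_iff hz).1 hz0) g)
  have hω : ω ^ m = 1 := by
    obtain ⟨x, hx, hx'⟩ := h.c_surj 1
    have := h.c_rho_iter hx m
    rw [hρm, hx', mul_one] at this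
    exact this.symm
  have hω0 : ω ≠ 0 := by
    intro h0
    obtain ⟨k, hk⟩ := h.gen 1 one_ne_zero
    have hm0 : m ≠ 0 := by
      rintro rfl
      exact (by decide : ¬ Odd 0) hm
    rw [h0, zero_pow hm0] at hω
    exact zero_ne_one hω
  let b : G → K := fun x => ∑ i ∈ Finset.range m, (ω ^ i)⁻¹ * b₀ (ρ^[i] x)
  have bmul : ∀ x y, b (x * y) = b x + b y := by
    intro x y
    show ∑ i ∈ Finset.range m, _ = _
    have e : ∀ i, ρ^[i] (x * y) = ρ^[i] x * ρ^[i] y := fun i => iterate_map_mul ρ.toMonoidHom i x y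
    simp only [e, hb₀, mul_add, Finset.sum_add_distrib]
    rfl
  have brho : ∀ x, b (ρ x) = ω * b x := by
    intro x
    show ∑ i ∈ Finset.range m, _ = ω * ∑ i ∈ Finset.range m, _
    obtain ⟨k, hk⟩ := hm
    have hm' : m = (m - 1) + 1 := by omega
    have h3 : ∀ i, (ω ^ i)⁻¹ * b₀ (ρ^[i] (ρ x)) = ω * ((ω ^ (i + 1))⁻¹ * b₀ (ρ^[i + 1] x)) := by
      intro i
      rw [← Function.iterate_succ_apply, pow_succ]
      field_simp
    simp only [h3]
    rw [← Finset.mul_sum]
    congr 1
    have h4 := Finset.sum_range_succ (fun i => (ω ^ i)⁻¹ * b₀ (ρ^[i] x)) m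
    have h5 := Finset.sum_range_succ' (fun i => (ω ^ i)⁻¹ * b₀ (ρ^[i] x)) m
    rw [h4] at h5
    simp only [pow_zero, inv_one, one_mul, Function.iterate_zero, id_eq] at h5
    rw [hω, hρm, inv_one, one_mul] at h5
    exact (add_right_cancel h5).symm
  have bN : ∀ w, InN α w → b w = c (del α w) := by
    intro w hw
    show ∑ i ∈ Finset.range m, _ = _
    have h3 : ∀ i ∈ Finset.range m, (ω ^ i)⁻¹ * b₀ (ρ^[i] w) = c (del α w) := by
      intro i _
      rw [hb₀N _ (h.InN_rho_iter hw i), h.e_rho_iter hw]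
      have : ω ^ i ≠ 0 := pow_ne_zero _ hω0
      field_simp
    rw [Finset.sum_congr rfl h3, Finset.sum_const, Finset.card_range, nsmul_eq_mul]
    have hm1 : ((m : ℕ) : K) = 1 := by
      obtain ⟨k, rfl⟩ := hm
      push_cast
      rw [CharTwo.two_eq_zero]
      simp
    rw [hm1, one_mul]
  -- commutators with `N`
  have F1 : ∀ x w, InN α w → (c ⁅x, w⁆) ^ 2 = a x * c (del α w) := by
    intro x w hw
    obtain ⟨y, hy⟩ := asurj (c (del α w))
    have hz := h.InN_eq (InN_del h hl y) hw hy
    have e : w = del α y * ((del α y)⁻¹ * w) := by group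
    have h1 : ⁅x, w⁆ = ⁅x, del α y⁆ := by
      conv_lhs => rw [e]
      exact comm_eq_of_central (h.central hz)
    rw [h1, F0 h hl x y]
    show a x * a y = _
    rw [show a y = c (del α w) from hy]
  -- the commutator form
  have hL : ∀ x y, (c ⁅x, y⁆) ^ 2 = a x * b y + a y * b x := by
    intro x y
    have key := alt_desc (frobenius K 2) ω h.gen ⊤ a
      (fun x _ y _ => amul x y)
      (fun t => by
        obtain ⟨x, hx⟩ := asurj t
        exact ⟨x, Subgroup.mem_top _, hx⟩)
      ρ (fun x _ => Subgroup.mem_top _) (fun x _ => arho x)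
      (fun (x y : G) => (c ⁅x, y⁆) ^ 2 + (a x * b y + a y * b x))
      (fun x _ x' _ y _ => by
        beta_reduce
        rw [c_comm_left h (hl.comm_fix _ _) (hl.comm_fix _ _), hsq2, amul, bmul]
        ring)
      (fun x _ y _ y' _ => by
        beta_reduce
        rw [c_comm_right h (hl.comm_fix _ _) (hl.comm_fix _ _), hsq2, amul, bmul]
        ring)
      (fun x _ => by
        beta_reduce
        rw [c_comm_self h x, h2]
        simp)
      (fun x _ w _ h0 => by
        beta_reduce
        have hw := (azero w).1 h0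
        rw [F1 x w hw, h0, bN w hw, zero_mul, add_zero, h2])
      (fun x _ y _ => by
        beta_reduce
        rw [c_comm_rho h (hl.comm_fix _ _), arho, arho, brho, brho, frobenius_def]
        ring)
      x (Subgroup.mem_top _) y (Subgroup.mem_top _)
    have h3 := h2 (a x * b y + a y * b x)
    have : (c ⁅x, y⁆) ^ 2 + (a x * b y + a y * b x) =
        (a x * b y + a y * b x) + (a x * b y + a y * b x) := by rw [key, h3]
    exact add_right_cancel this
  let u : G → K := fun x => r (a x)
  let v : G → K := fun x => r (b x)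
  have hu2 : ∀ x, u x ^ 2 = a x := fun x => hr2 _
  have hv2 : ∀ x, v x ^ 2 = b x := fun x => hr2 _
  have umul : ∀ x y, u (x * y) = u x + u y := by
    intro x y
    show r (a (x * y)) = r (a x) + r (a y)
    rw [amul, hradd]
  have vmul : ∀ x y, v (x * y) = v x + v y := by
    intro x y
    show r (b (x * y)) = r (b x) + r (b y)
    rw [bmul, hradd]
  have hcuv : ∀ x y, c ⁅x, y⁆ = u x * v y + u y * v x := by
    intro x y
    apply hsqinj
    rw [hL, hsq2, mul_pow, mul_pow, hu2, hu2, hv2, hv2]
  -- the squaring map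
  have hsfix := hs.sq_fix
  have hinv1 : ∀ x y : G, c ⁅x⁻¹, y⁆ = c ⁅x, y⁆ := by
    intro x y
    have h3 := c_comm_left h (hl.comm_fix x⁻¹ y) (hl.comm_fix x y)
    rw [inv_mul_cancel, commutatorElement_one_left, h.c_one] at h3
    have h4 := h2 (c ⁅x, y⁆)
    have : c ⁅x⁻¹, y⁆ + c ⁅x, y⁆ = c ⁅x, y⁆ + c ⁅x, y⁆ := by rw [← h3, h4]
    exact add_right_cancel this
  have hspolar : ∀ x y, c ((x * y) * (x * y)) = c (x * x) + c (y * y) + c ⁅x, y⁆ := by
    intro x y
    have e : (x * y) * (x * y) = (x * x) * (⁅x⁻¹, y⁆ * (y * y)) := by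
      simp only [commutatorElement_def]
      group
    rw [e, h.c_mul _ _ (hsfix x) (h.fix_mul (hl.comm_fix _ _) (hsfix y)),
      h.c_mul _ _ (hl.comm_fix _ _) (hsfix y), hinv1]
    ring
  let s' : G → K := fun x => c (x * x) + u x * v x + b x
  have s'mul : ∀ x y, s' (x * y) = s' x + s' y := by
    intro x y
    show c ((x * y) * (x * y)) + u (x * y) * v (x * y) + b (x * y) =
      (c (x * x) + u x * v x + b x) + (c (y * y) + u y * v y + b y)
    rw [hspolar, hcuv, umul, vmul, bmul]
    have e1 := h2 (u x * v y + u y * v x)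
    linear_combination e1
  have hu_rho : ∀ x, u (ρ x) = r ω * u x := by
    intro x
    show r (a (ρ x)) = r ω * r (a x)
    rw [arho, hrmul]
  have hv_rho : ∀ x, v (ρ x) = r ω * v x := by
    intro x
    show r (b (ρ x)) = r ω * r (b x)
    rw [brho, hrmul]
  have s'rho : ∀ x, s' (ρ x) = ω * s' x := by
    intro x
    show c (ρ x * ρ x) + u (ρ x) * v (ρ x) + b (ρ x) = ω * (c (x * x) + u x * v x + b x)
    rw [← map_mul, h.c_rho _ (hsfix x), hu_rho, hv_rho, brho]
    have := hr2 ω
    linear_combination (u x * v x) * this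
  have s'rhoi : ∀ (k : ℕ) x, s' (ρ^[k] x) = ω ^ k * s' x := by
    intro k x
    induction k with
    | zero => simp
    | succ k ih =>
      rw [Function.iterate_succ_apply', s'rho, ih]
      ring
  have s'N : ∀ w, InN α w → s' w = 0 := by
    intro w hw
    show c (w * w) + r (a w) * r (b w) + b w = 0
    have ha0 : a w = 0 := (azero w).2 hw
    rw [ha0, hr0, zero_mul, add_zero, bN w hw]
    obtain ⟨y, hy⟩ := asurj (c (del α w))
    have hz := h.InN_eq (InN_del h hl y) hw hy
    set z := (del α y)⁻¹ * w with hzdef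
    have e : w = del α y * z := by rw [hzdef]; group
    have e2 : w * w = del α y * del α y := by
      rw [e]
      have h3 := h.central hz (del α y)
      calc del α y * z * (del α y * z) = del α y * (z * del α y) * z := by group
        _ = del α y * (del α y * z) * z := by rw [h3]
        _ = del α y * del α y * (z * z) := by group
        _ = del α y * del α y := by rw [h.sq_eq_one hz, mul_one]
    have e3 : c (w * w) = c (del α (del α y)) := by
      rw [e2, h.del_del]
      rw [h.inv_eq_self (hsfix _)]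
    rw [e3]
    have : c (del α (del α y)) = c (del α w) := hy
    rw [this]
    exact h2 _
  obtain ⟨x₁, hx₁⟩ := asurj 1
  refine ⟨u, v, s' x₁, umul, vmul, ?_, ?_, ?_, ?_⟩
  · intro x hux hvx
    have h3 : a x = 0 := by rw [← hu2, hux]; simp
    have h4 : b x = 0 := by rw [← hv2, hvx]; simp
    have hw := (azero x).1 h3
    rw [bN x hw] at h4
    exact (h.e_zero_iff hw).1 h4
  · intro z hz
    have hw := InN_of_fix hz
    constructor
    · show r (a z) = 0
      rw [(azero z).2 hw, hr0]
    · show r (b z) = 0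
      rw [bN z hw, (h.e_zero_iff hw).2 hz, hr0]
  · intro s t
    obtain ⟨x₀, hx₀⟩ := asurj (s ^ 2)
    obtain ⟨w, hw, hw'⟩ := h.e_surj hne1 (t ^ 2 + b x₀)
    refine ⟨x₀ * w, ?_, ?_⟩
    · show r (a (x₀ * w)) = s
      rw [amul, (azero w).2 hw, add_zero, hx₀, hrsq]
    · show r (b (x₀ * w)) = t
      rw [bmul, bN w hw, hw']
      have h3 := h2 (b x₀)
      have : b x₀ + (t ^ 2 + b x₀) = t ^ 2 := by
        linear_combination h3
      rw [this, hrsq]
  · intro x
    have hall : s' x = s' x₁ * a x := by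
      by_cases hax : a x = 0
      · rw [hax, mul_zero]
        exact s'N x ((azero x).1 hax)
      · obtain ⟨k, hk⟩ := h.gen (a x) hax
        have h3 : a (ρ^[k] x₁) = a x := by
          rw [arhoi, hx₁, mul_one, hk]
        set y := ρ^[k] x₁ with hy
        have hw : InN α (y⁻¹ * x) := by
          rw [← azero, amul]
          have h4 := amul y⁻¹ y
          rw [inv_mul_cancel] at h4
          have h5 : a 1 = 0 := (azero 1).2 InN_one
          rw [h5] at h4
          rw [← h3]
          exact h4.symm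
        have e : x = y * (y⁻¹ * x) := by group
        rw [e, s'mul, s'N _ hw, add_zero, hy, s'rhoi, ← e, ← hk]
        ring
    have h5 : c (x * x) = s' x + u x * v x + b x := by
      show c (x * x) = (c (x * x) + u x * v x + b x) + u x * v x + b x
      have h6 := h2 (u x * v x)
      have h7 := h2 (b x)
      linear_combination -h6 - h7
    rw [h5, hall, ← hu2, ← hv2]
    have h6 := h2 (v x ^ 2)
    ring

end Cfsg.Agent.Lib.Sing.Coord
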