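import Cfsg.Agent.Lib.Sing.Two

/-!
# The structure theorem: `G` non-abelian implies class two with `G/C` elementary abelian
-/

set_option autoImplicit false
set_option linter.unusedSectionVars false
set_option linter.style.haveILetI false

open scoped commutatorElement

namespace Cfsg.Agent.Lib.Sing.Core

open Cfsg.Agent.Lib.Sing.Basic Cfsg.Agent.Lib.Sing.Quot Cfsg.Agent.Lib.Sing.Alt
open Cfsg.Agent.Lib.Sing.Cl Cfsg.Agent.Lib.Sing.Two

universe u v

variable {K : Type v} [Field K] {G : Type u} [Group G]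
variable {ω : K} {α ρ : G ≃* G} {c : G → K}

theorem comm_mul_of_commute {x b z : G} (hb : b * z = z * b) : ⁅x * b, z⁆ = ⁅x, z⁆ := by
  have h1 : ⁅b, z⁆ = 1 := commutatorElement_eq_one_iff_mul_comm.mpr hb
  rw [comm_mul_left (by rw [h1]; simp), h1, mul_one]

variable [CharP K 2] [Finite G] [Finite K]

theorem caseI (h : Hyp ω α ρ c) (hne : ∃ x, α x ≠ x) (hs : Str (αb h))
    (hna : ∃ x y : G ⧸ h.Csub, x * y ≠ y * x)
    (hK : ∃ t₁ t₂ : K, t₁ ≠ 0 ∧ t₂ ≠ 0 ∧ t₁ + t₂ ≠ 0) : False := by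
  have h' := hyp_quot h hne
  have hl' : Cl2 (αb h) := hs.toCl2
  have mk_comm : ∀ x y : G, ((⁅x, y⁆ : G) : G ⧸ h.Csub) = ⁅(x : G ⧸ h.Csub), (y : G ⧸ h.Csub)⁆ :=
    fun _ _ => rfl
  have A1 : ∀ x y : G, InN α ⁅x, y⁆ := fun x y => (fixb_iff h).1 (by
    rw [mk_comm]
    exact hs.comm_fix _ _)
  have A2 : ∀ x : G, InN α (x * x) := fun x => (fixb_iff h).1 (by
    rw [QuotientGroup.mk_mul]
    exact hs.sq_fix _)
  have A3 : ∀ x y : G, ¬ InN α (del α x) → InN α (del α y) → ¬ InN α y → α ⁅x, y⁆ ≠ ⁅x, y⁆ := by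
    intro x y hx hy hy' h1
    exact hs.nondeg (x : G ⧸ h.Csub) (y : G ⧸ h.Csub) (mt (InNb_iff h).1 hx) ((InNb_iff h).2 hy)
      (mt (fixb_iff h).1 hy') ((commb_iff h).2 h1)
  have A4 : ∀ y y' : G, InN α (del α y) → InN α (del α y') → α ⁅y, y'⁆ = ⁅y, y'⁆ :=
    fun y y' hy hy' => (commb_iff h).1 (N_comm h' ((InNb_iff h).2 hy) ((InNb_iff h).2 hy'))
  have ha3 : ∀ x : G, a0 (αb h) (cb h) (x : G ⧸ h.Csub) = c (del α (del α (del α x))) := by
    intro x
    unfold a0
    rw [delb_mk, delb_mk, cb_mk]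
  have a3_mul : ∀ x y : G, c (del α (del α (del α (x * y)))) =
      c (del α (del α (del α x))) + c (del α (del α (del α y))) := by
    intro x y
    rw [← ha3, ← ha3, ← ha3, QuotientGroup.mk_mul]
    exact a0_mul h' hl' _ _
  have a3_zero : ∀ x : G, c (del α (del α (del α x))) = 0 ↔ InN α (del α x) := by
    intro x
    rw [← ha3, a0_zero_iff h' hl', InNb_iff]
  have a3_surj : ∀ t : K, ∃ x : G, c (del α (del α (del α x))) = t := by
    intro t
    obtain ⟨x, hx⟩ := a0_surj h' hl' (exists_not_InN h' hna) t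
    obtain ⟨x, rfl⟩ := QuotientGroup.mk_surjective x
    exact ⟨x, by rw [← ha3, hx]⟩
  have he3 : ∀ y : G, c (del α (del α y)) = cb h (del (αb h) (y : G ⧸ h.Csub)) := by
    intro y
    rw [delb_mk, cb_mk]
  have e3_mul : ∀ y y' : G, InN α (del α y) → InN α (del α y') →
      c (del α (del α (y * y'))) = c (del α (del α y)) + c (del α (del α y')) := by
    intro y y' hy hy'
    rw [he3, he3, he3, QuotientGroup.mk_mul]
    exact h'.e_mul ((InNb_iff h).2 hy) ((InNb_iff h).2 hy')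
  have e3_rho : ∀ y : G, InN α (del α y) → c (del α (del α (ρ y))) = ω * c (del α (del α y)) := by
    intro y hy
    have := h'.e_rho ((InNb_iff h).2 hy)
    rw [ρb_mk, ← he3, ← he3] at this
    exact this
  have e3_zero : ∀ y : G, InN α (del α y) → (c (del α (del α y)) = 0 ↔ InN α y) := by
    intro y hy
    rw [he3, h'.e_zero_iff ((InNb_iff h).2 hy), fixb_iff]
  have hne' : ∃ x : G ⧸ h.Csub, αb h x ≠ x := by
    by_contra hcon
    push Not at hcon
    obtain ⟨a, b, hab⟩ := hna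
    exact hab (h'.central (hcon a) b)
  have e3_surj : ∀ t : K, ∃ y : G, InN α (del α y) ∧ c (del α (del α y)) = t := by
    intro t
    obtain ⟨w, hw, hw'⟩ := h'.e_surj hne' t
    obtain ⟨w, rfl⟩ := QuotientGroup.mk_surjective w
    exact ⟨w, (InNb_iff h).1 hw, by rw [he3, hw']⟩
  let M : Subgroup G := h'.Nsub.comap (QuotientGroup.mk' h.Csub)
  have hM : ∀ y, y ∈ M ↔ InN α (del α y) := fun y => InNb_iff h
  have hδM : ∀ x : G, InN α (del α (del α x)) := by
    intro x
    have := InN_del h' hl' (x : G ⧸ h.Csub)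
    rw [delb_mk] at this
    exact (InNb_iff h).1 this
  have A6 : ∀ y : G, InN α (del α y) → ∃ x : G, InN α ((del α x)⁻¹ * y) := by
    intro y hy
    obtain ⟨x, hx⟩ := a3_surj (c (del α (del α y)))
    refine ⟨x, ?_⟩
    have h1 := h'.InN_eq (InN_del h' hl' (x : G ⧸ h.Csub)) ((InNb_iff h).2 hy) (by
      rw [delb_mk, delb_mk, cb_mk, hx, he3])
    rw [delb_mk] at h1
    exact (fixb_iff h).1 h1
  -- `δ x` centralizes `N`
  have hδN : ∀ x w : G, InN α w → del α x * w = w * del α x := by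
    intro x w hw
    have h1 := comm_fix_of_N h hw x
    rw [map_commutatorElement, ← mul_del α x, ← mul_del α w,
      comm_eq_of_central (h.central hw), comm_mul_left (h.central (comm_fix_of_N h hw _))] at h1
    have h2 : ⁅del α x, w⁆ = 1 := mul_left_cancel (a := ⁅x, w⁆) (by rw [h1, mul_one])
    exact commutatorElement_eq_one_iff_mul_comm.mp h2
  have hMN : ∀ y w : G, InN α (del α y) → InN α w → y * w = w * y := by
    intro y w hy hw
    obtain ⟨x, hx⟩ := A6 y hy
    have e : y = del α x * ((del α x)⁻¹ * y) := by group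
    rw [e]
    have h1 := hδN x w hw
    have h2 := N_comm h hx hw
    calc del α x * ((del α x)⁻¹ * y) * w = del α x * (((del α x)⁻¹ * y) * w) := by group
      _ = del α x * (w * ((del α x)⁻¹ * y)) := by rw [h2]
      _ = (del α x * w) * ((del α x)⁻¹ * y) := by group
      _ = (w * del α x) * ((del α x)⁻¹ * y) := by rw [h1]
      _ = w * (del α x * ((del α x)⁻¹ * y)) := by group
  have hMc : ∀ y y' : G, InN α (del α y) → InN α (del α y') → y * y' = y' * y := by
    intro y y' hy hy'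
    have key := alt_desc (RingHom.id K) ω h.gen M (fun y => c (del α (del α y)))
      (fun a ha b hb => e3_mul a b ((hM a).1 ha) ((hM b).1 hb))
      (fun t => by
        obtain ⟨a, ha, ha'⟩ := e3_surj t
        exact ⟨a, (hM a).2 ha, ha'⟩)
      ρ
      (fun a ha => (hM _).2 (by
        have h1 := (hM a).1 ha
        unfold InN at h1 ⊢
        rw [h.del_rho, h.del_rho]
        rw [h.comm, h1]))
      (fun a ha => e3_rho a ((hM a).1 ha))
      (fun (a b : G) => c ⁅a, b⁆)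
      (fun a ha a' ha' b hb => c_comm_left h (A4 a b ((hM a).1 ha) ((hM b).1 hb))
        (A4 a' b ((hM a').1 ha') ((hM b).1 hb)))
      (fun a ha b hb b' hb' => c_comm_right h (A4 a b ((hM a).1 ha) ((hM b).1 hb))
        (A4 a b' ((hM a).1 ha) ((hM b').1 hb')))
      (fun a _ => c_comm_self h a)
      (fun a ha w hw h0 => c_comm_of_comm h (hMN a w ((hM a).1 ha)
        ((e3_zero w ((hM w).1 hw)).1 h0)))
      (fun a ha b hb => c_comm_rho h (A4 a b ((hM a).1 ha) ((hM b).1 hb)))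
      y ((hM y).2 hy) y' ((hM y').2 hy')
    exact comm_of_c_zero h (A4 y y' hy hy') key
  -- the key formula
  have hkey : ∀ x y : G, InN α (del α y) → del α ⁅x, y⁆ = ⁅x, del α y⁆ := by
    intro x y hy
    have h1 : α ⁅x, y⁆ = ⁅x, y⁆ * ⁅x, del α y⁆ := by
      rw [map_commutatorElement, ← mul_del α x, ← mul_del α y, comm_mul_of_commute,
        comm_mul_right (h.central (comm_fix_of_N h hy _))]
      have h2 := hMc (del α x) y (hδM x) hy
      have h3 := hMN (del α x) (del α y) (hδM x) hy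
      calc del α x * (y * del α y) = (del α x * y) * del α y := by group
        _ = (y * del α x) * del α y := by rw [h2]
        _ = y * (del α x * del α y) := by group
        _ = y * (del α y * del α x) := by rw [h3]
        _ = (y * del α y) * del α x := by group
    show ⁅x, y⁆⁻¹ * α ⁅x, y⁆ = _
    rw [h1, inv_mul_cancel_left]
  -- nondegeneracy
  have hnd : ∀ x w : G, ¬ InN α (del α x) → InN α w → α w ≠ w → x * w ≠ w * x := by
    intro x w hx hw hw1 hcomm
    obtain ⟨y, hy, hy'⟩ := e3_surj (c (del α w))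
    have hz := h.InN_eq hy hw hy'
    have hyN : ¬ InN α y := by
      intro hyN
      have h1 := (e3_zero y hy).2 hyN
      rw [hy'] at h1
      exact h.e_ne_zero hw hw1 h1
    have e : w = del α y * ((del α y)⁻¹ * w) := by group
    have h1 : ⁅x, w⁆ = ⁅x, del α y⁆ := by
      conv_lhs => rw [e]
      exact comm_eq_of_central (h.central hz)
    rw [← hkey x y hy, commutatorElement_eq_one_iff_mul_comm.mpr hcomm] at h1
    exact A3 x y hx hy hyN (del_eq_one_iff.mp h1.symm)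
  have hsq : ∀ x : G, ¬ InN α (del α x) → α (x * x) = x * x := by
    intro x hx
    by_contra h1
    exact hnd x (x * x) hx (A2 x) h1 (by group)
  have hMnot : ∀ x y : G, ¬ InN α (del α x) → InN α (del α y) → ¬ InN α (del α (x * y)) := by
    intro x y hx hy hxy
    apply hx
    have h1 := M.mul_mem ((hM _).2 hxy) (M.inv_mem ((hM _).2 hy))
    rw [mul_inv_cancel_right] at h1
    exact (hM _).1 h1
  have hΨ : ∀ x y : G, ¬ InN α (del α x) → InN α (del α y) → α (x⁻¹ * y * x * y) = x⁻¹ * y * x * y := by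
    intro x y hx hy
    have h1 := hsq _ (hMnot x y hx hy)
    have h2 := hsq x hx
    have e : x⁻¹ * y * x * y = (x * x)⁻¹ * ((x * y) * (x * y)) := by group
    rw [e, map_mul, map_inv, h1, h2]
  obtain ⟨t₁, t₂, ht₁, ht₂, ht₃⟩ := hK
  obtain ⟨x₁, hx₁⟩ := a3_surj t₁
  obtain ⟨x₂, hx₂⟩ := a3_surj t₂
  have hn1 : ¬ InN α (del α x₁) := fun h1 => ht₁ (by rw [← hx₁]; exact (a3_zero x₁).2 h1)
  have hn2 : ¬ InN α (del α x₂) := fun h1 => ht₂ (by rw [← hx₂]; exact (a3_zero x₂).2 h1)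
  have hn3 : ¬ InN α (del α (x₁ * x₂)) := fun h1 => ht₃ (by
    rw [← hx₁, ← hx₂, ← a3_mul]
    exact (a3_zero _).2 h1)
  have hyy : ∀ y : G, InN α (del α y) → α (y * y) = y * y := by
    intro y hy
    have h1 := hΨ x₁ y hn1 hy
    have h2 := hΨ x₂ y hn2 hy
    have h3 := hΨ (x₁ * x₂) y hn3 hy
    set z₁ := x₁⁻¹ * y * x₁ * y with hz₁
    set z₂ := x₂⁻¹ * y * x₂ * y with hz₂
    set z₃ := (x₁ * x₂)⁻¹ * y * (x₁ * x₂) * y with hz₃
    have c1 := h.central h1
    have c2 := h.central h2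
    have e1 : x₁⁻¹ * y * x₁ = z₁ * y⁻¹ := by rw [hz₁]; group
    have e2 : x₂⁻¹ * y⁻¹ * x₂ = y * z₂⁻¹ := by rw [hz₂]; group
    have e3 : z₃ = z₁ * z₂⁻¹ * (y * y) := by
      have e4 : z₃ = x₂⁻¹ * (x₁⁻¹ * y * x₁) * x₂ * y := by rw [hz₃]; group
      rw [e4, e1]
      have e5 : x₂⁻¹ * z₁ = z₁ * x₂⁻¹ := (c1 _).symm
      calc x₂⁻¹ * (z₁ * y⁻¹) * x₂ * y = (x₂⁻¹ * z₁) * y⁻¹ * x₂ * y := by group
        _ = (z₁ * x₂⁻¹) * y⁻¹ * x₂ * y := by rw [e5]
        _ = z₁ * (x₂⁻¹ * y⁻¹ * x₂) * y := by group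
        _ = z₁ * (y * z₂⁻¹) * y := by rw [e2]
        _ = z₁ * (z₂⁻¹ * y) * y := by
            have : y * z₂⁻¹ = z₂⁻¹ * y := by
              have h5 := c2 y
              have : z₂⁻¹ * (z₂ * y) * z₂⁻¹ = z₂⁻¹ * (y * z₂) * z₂⁻¹ := by rw [h5]
              simpa [mul_assoc] using this
            rw [this]
        _ = z₁ * z₂⁻¹ * (y * y) := by group
    have e6 : y * y = (z₁ * z₂⁻¹)⁻¹ * z₃ := by rw [e3]; group
    rw [e6, map_mul, map_inv, map_mul, map_inv, h1, h2, h3]
  obtain ⟨y, hy, hy'⟩ := e3_surj 1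
  have hyN : ¬ InN α y := by
    intro h1
    have h2 := (e3_zero y hy).2 h1
    rw [hy'] at h2
    exact one_ne_zero h2
  have hx' : ¬ InN α (del α x₁⁻¹) := by
    intro h1
    apply hn1
    have h2 := M.inv_mem ((hM _).2 h1)
    rw [inv_inv] at h2
    exact (hM _).1 h2
  apply A3 x₁⁻¹ y hx' hy hyN
  have e : ⁅x₁⁻¹, y⁆ = (x₁⁻¹ * y * x₁ * y) * (y * y)⁻¹ := by
    simp only [commutatorElement_def]
    group
  rw [e, map_mul, map_inv, hΨ x₁ y hn1 hy, hyy y hy]

/-- The structure theorem. -/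
theorem struct (hK : ∃ t₁ t₂ : K, t₁ ≠ 0 ∧ t₂ ≠ 0 ∧ t₁ + t₂ ≠ 0) :
    ∀ (n : ℕ) (G : Type u) [Group G] [Finite G] (α ρ : G ≃* G) (c : G → K),
      Nat.card G = n → Hyp ω α ρ c → (∃ x y : G, x * y ≠ y * x) → Str α := by
  intro n
  induction n using Nat.strong_induction_on with
  | _ n ih =>
    intro G _ _ α ρ c hn h hna
    have hne : ∃ x, α x ≠ x := by
      by_contra hcon
      push Not at hcon
      obtain ⟨a, b, hab⟩ := hna
      exact hab (h.central (hcon a) b)
    by_cases hb : ∃ x y : G ⧸ h.Csub, x * y ≠ y * x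
    · exfalso
      have hs := ih _ (hn ▸ card_quot_lt h) (G ⧸ h.Csub) (αb h) (ρb h) (cb h) rfl (hyp_quot h hne) hb
      exact caseI h hne hs hb hK
    · push Not at hb
      exact str_of_comm h (fun x y => (commb_iff h).1 (hb _ _)) hna

end Cfsg.Agent.Lib.Sing.Core
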