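import Mathlib

/-!
# A group transitive and cyclic on the nonzero vectors gives field coordinates
-/

set_option autoImplicit false
set_option linter.style.haveILetI false
set_option linter.deprecated false

namespace Cfsg.Agent.Lib.Sing.Field

theorem exists_field_coord {V : Type*} [AddCommGroup V] [Finite V] (r : V ≃+ V)
    (hnt : ∃ x : V, x ≠ 0) (htr : ∀ x y : V, x ≠ 0 → y ≠ 0 → ∃ k : ℕ, r^[k] x = y)
    {K : Type*} [Field K] [Fintype K] (hK : Fintype.card K = Nat.card V) :
    ∃ (c : V ≃+ K) (ω : K), ∀ z, c (r z) = ω * c z := by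
  classical
  obtain ⟨c₀, hc₀⟩ := hnt
  let r' : AddMonoid.End V := (r : V →+ V)
  have hr' : ∀ x, r' x = r x := fun _ => rfl
  have hpow : ∀ (k : ℕ) x, (r' ^ k) x = r^[k] x := by
    intro k x
    rw [AddMonoid.End.coe_pow]
    rfl
  let S : Subring (AddMonoid.End V) := Subring.closure {r'}
  haveI : Finite (V →+ V) := Finite.of_injective (fun f : V →+ V => (f : V → V)) DFunLike.coe_injective
  haveI : Finite (AddMonoid.End V) := inferInstanceAs (Finite (V →+ V))
  letI cr : CommRing S := Subring.closureCommRingOfComm (by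
    rintro a rfl b rfl
    rfl)
  have hcomm : ∀ f : S, ∀ x, f.1 (r x) = r (f.1 x) := by
    rintro ⟨f, hf⟩ x
    show f (r x) = r (f x)
    induction hf using Subring.closure_induction generalizing x with
    | mem a ha =>
      rw [Set.mem_singleton_iff.mp ha]
      rfl
    | zero => simp
    | one => rfl
    | add a b _ _ ha hb =>
      show a (r x) + b (r x) = r (a x + b x)
      rw [ha, hb, map_add]
    | neg a _ ha =>
      show -(a (r x)) = r (-(a x))
      rw [ha, map_neg]
    | mul a b _ _ ha hb =>
      show a (b (r x)) = r (a (b x))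
      rw [hb, ha]
  have hcommk : ∀ f : S, ∀ (k : ℕ) x, f.1 (r^[k] x) = r^[k] (f.1 x) := by
    intro f k x
    induction k with
    | zero => rfl
    | succ k ih =>
      rw [Function.iterate_succ_apply', Function.iterate_succ_apply', hcomm, ih]
  have hev0 : ∀ f : S, f.1 c₀ = 0 → f = 0 := by
    intro f hf
    apply Subtype.ext
    ext x
    by_cases hx : x = 0
    · rw [hx]
      simp
    obtain ⟨k, rfl⟩ := htr c₀ x hc₀ hx
    rw [hcommk, hf]
    have h0 : ∀ k : ℕ, r^[k] (0 : V) = 0 := by
      intro k
      induction k with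
      | zero => rfl
      | succ k ih => rw [Function.iterate_succ_apply', ih, map_zero]
    exact h0 k
  have hrkinj : ∀ (k : ℕ), Function.Injective r^[k] := fun k => r.injective.iterate k
  haveI : NoZeroDivisors S := ⟨by
    intro f g hfg
    by_cases hg : g = 0
    · exact Or.inr hg
    left
    apply hev0
    have hgc : g.1 c₀ ≠ 0 := fun h => hg (hev0 g h)
    obtain ⟨k, hk⟩ := htr c₀ _ hc₀ hgc
    have h1 : f.1 (g.1 c₀) = 0 := by
      have : (f * g).1 c₀ = 0 := by rw [hfg]; rfl
      exact this
    rw [← hk, hcommk] at h1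
    apply hrkinj k
    rw [h1]
    have h0 : ∀ k : ℕ, r^[k] (0 : V) = 0 := by
      intro k
      induction k with
      | zero => rfl
      | succ k ih => rw [Function.iterate_succ_apply', ih, map_zero]
    exact (h0 k).symm⟩
  haveI : Nontrivial S := ⟨⟨1, 0, by
    intro h
    have : (1 : S).1 c₀ = (0 : S).1 c₀ := by rw [h]
    exact hc₀ this⟩⟩
  haveI : IsDomain S := NoZeroDivisors.to_isDomain S
  letI fS : _root_.Field S := (Finite.isField_of_domain S).toField
  letI : Fintype S := Fintype.ofFinite S
  let ev : S →+ V :=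
    { toFun := fun f => f.1 c₀
      map_zero' := rfl
      map_add' := fun _ _ => rfl }
  have evinj : Function.Injective ev := by
    rw [injective_iff_map_eq_zero]
    exact hev0
  have evsurj : Function.Surjective ev := by
    intro x
    by_cases hx : x = 0
    · exact ⟨0, by rw [hx]; rfl⟩
    obtain ⟨k, rfl⟩ := htr c₀ x hc₀ hx
    refine ⟨⟨r' ^ k, S.pow_mem (Subring.subset_closure rfl) k⟩, ?_⟩
    exact hpow k c₀
  let evE : S ≃+ V := AddEquiv.ofBijective ev ⟨evinj, evsurj⟩
  have hcard : Fintype.card S = Fintype.card K := by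
    rw [hK, ← Nat.card_eq_fintype_card]
    exact Nat.card_congr evE.toEquiv
  let ι : S ≃+* K := FiniteField.ringEquivOfCardEq hcard
  refine ⟨evE.symm.trans ι.toAddEquiv, ι ⟨r', Subring.subset_closure rfl⟩, ?_⟩
  intro z
  obtain ⟨f, rfl⟩ := evE.surjective z
  have e : r (evE f) = evE (⟨r', Subring.subset_closure rfl⟩ * f) := rfl
  rw [e]
  simp only [AddEquiv.trans_apply, AddEquiv.symm_apply_apply]
  exact map_mul ι _ _

end Cfsg.Agent.Lib.Sing.Field
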