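import Cfsg.Agent.Lib.Sing.Cl

/-!
# The case `[G,G] ≤ C`
-/

set_option autoImplicit false
set_option linter.unusedSectionVars false
set_option linter.style.haveILetI false

open scoped commutatorElement

namespace Cfsg.Agent.Lib.Sing.Two

open Cfsg.Agent.Lib.Sing.Basic Cfsg.Agent.Lib.Sing.Quot Cfsg.Agent.Lib.Sing.Alt
open Cfsg.Agent.Lib.Sing.Cl

variable {K : Type*} [Field K] {G : Type*} [Group G]
variable {ω : K} {α ρ : G ≃* G} {c : G → K}

structure Cl2 (α : G ≃* G) : Prop where
  comm_fix : ∀ x y : G, α ⁅x, y⁆ = ⁅x, y⁆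
  sq_fix : ∀ x : G, α (x * x) = x * x

structure Str (α : G ≃* G) : Prop extends Cl2 α where
  nondeg : ∀ x w : G, ¬ InN α x → InN α w → α w ≠ w → x * w ≠ w * x

/-- The top coordinate. -/
def a0 (α : G ≃* G) (c : G → K) (x : G) : K := c (del α (del α x))

theorem conj_eq (w y : G) : y⁻¹ * w * y = w * ⁅w⁻¹, y⁻¹⁆ := by
  simp only [commutatorElement_def]
  group

theorem del_mul_eq (α : G ≃* G) (y y' : G) :
    del α (y * y') = del α y * ⁅(del α y)⁻¹, y'⁻¹⁆ * del α y' := by
  rw [del_mul, conj_eq]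

variable (h : Hyp ω α ρ c) [CharP K 2] [Finite G]

include h

section cl

variable (hl : Cl2 α)
include hl

theorem InN_del (x : G) : InN α (del α x) := by
  unfold InN
  rw [h.del_del, map_inv, hl.sq_fix]

theorem del_conj (w y : G) : del α (y⁻¹ * w * y) = del α w := by
  rw [conj_eq, h.del_mul_fix (hl.comm_fix _ _)]

theorem InN_conj {w : G} (hw : InN α w) (y : G) : InN α (y⁻¹ * w * y) := by
  unfold InN
  rw [del_conj h hl]
  exact hw

theorem del_del_mul (x y : G) :
    c (del α (del α (x * y))) = c (del α (del α x)) + c (del α (del α y)) := by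
  rw [del_mul, h.e_mul (InN_conj h hl (InN_del h hl x) y) (InN_del h hl y), del_conj h hl]

theorem a0_mul (x y : G) : a0 α c (x * y) = a0 α c x + a0 α c y := del_del_mul h hl x y

theorem a0_rho (x : G) : a0 α c (ρ x) = ω * a0 α c x := by
  unfold a0
  rw [h.del_rho, h.del_rho]
  exact h.c_rho _ (InN_del h hl x)

theorem a0_rho_iter (k : ℕ) (x : G) : a0 α c (ρ^[k] x) = ω ^ k * a0 α c x := by
  induction k with
  | zero => simp
  | succ k ih =>
    rw [Function.iterate_succ_apply', a0_rho h hl, ih]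
    ring

theorem a0_zero_iff (x : G) : a0 α c x = 0 ↔ InN α x := by
  unfold a0
  rw [h.e_zero_iff (InN_del h hl x)]
  rfl

theorem a0_surj (hne : ∃ x, ¬ InN α x) (t : K) : ∃ x, a0 α c x = t := by
  by_cases ht : t = 0
  · refine ⟨1, ?_⟩
    rw [ht, a0_zero_iff h hl]
    exact InN_one
  obtain ⟨x, hx⟩ := hne
  have h0 : a0 α c x ≠ 0 := fun h1 => hx ((a0_zero_iff h hl x).1 h1)
  obtain ⟨k, hk⟩ := h.gen (t / a0 α c x) (div_ne_zero ht h0)
  refine ⟨ρ^[k] x, ?_⟩
  rw [a0_rho_iter h hl, hk]
  field_simp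

theorem comm_del_self (x : G) : ⁅x, del α x⁆ = del α (del α x) := by
  have h1 : del α (x * x) = 1 := del_eq_one_iff.mpr (hl.sq_fix x)
  rw [del_mul] at h1
  rw [h.del_del]
  set y := del α x with hy
  have h2 : x⁻¹ * y * x = y⁻¹ := eq_inv_of_mul_eq_one_left h1
  have h3 : x * y * x⁻¹ = y⁻¹ := by
    have : y = x * y⁻¹ * x⁻¹ := by
      rw [← h2]
      group
    have h4 : y⁻¹ = x * y * x⁻¹ := by
      conv_lhs => rw [this]
      group
    exact h4.symm
  rw [commutatorElement_def, h3]
  group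

theorem c_comm_del_self (x : G) : c ⁅x, del α x⁆ = a0 α c x := by
  rw [comm_del_self h hl]
  rfl

theorem c_comm_del_mul (x y y' : G) :
    c ⁅x, del α (y * y')⁆ = c ⁅x, del α y⁆ + c ⁅x, del α y'⁆ := by
  rw [del_mul_eq α, c_comm_right h (hl.comm_fix _ _) (hl.comm_fix _ _),
    comm_eq_of_central (h.central (hl.comm_fix _ _))]

variable [Finite K]

theorem F0 (x y : G) : (c ⁅x, del α y⁆) ^ 2 = a0 α c x * a0 α c y := by
  haveI : ExpChar K 2 := ExpChar.prime Nat.prime_two
  have h2 : ∀ s : K, s + s = 0 := CharTwo.add_self_eq_zero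
  by_cases hne : ∃ x, ¬ InN α x
  swap
  · push Not at hne
    have h1 : a0 α c x = 0 := (a0_zero_iff h hl x).2 (hne x)
    have h3 : c ⁅x, del α y⁆ = 0 := c_comm_of_comm h (h.central (hne y) x).symm
    rw [h1, h3]
    simp
  have hsq : ∀ s t : K, (s + t) ^ 2 = s ^ 2 + t ^ 2 := by
    intro s t
    have : (s + t) ^ 2 = s ^ 2 + t ^ 2 + (s * t + s * t) := by ring
    rw [this, h2, add_zero]
  have key := alt_desc (frobenius K 2) ω h.gen ⊤ (a0 α c)
      (fun x _ y _ => a0_mul h hl x y)
      (fun t => by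
        obtain ⟨x, hx⟩ := a0_surj h hl hne t
        exact ⟨x, Subgroup.mem_top _, hx⟩)
      ρ (fun x _ => Subgroup.mem_top _) (fun x _ => a0_rho h hl x)
      (fun (x y : G) => (c ⁅x, del α y⁆) ^ 2 + a0 α c x * a0 α c y)
      (fun x _ x' _ y _ => by
        beta_reduce
        rw [c_comm_left h (hl.comm_fix _ _) (hl.comm_fix _ _), hsq, a0_mul h hl]
        ring)
      (fun x _ y _ y' _ => by
        beta_reduce
        rw [c_comm_del_mul h hl, hsq, a0_mul h hl]
        ring)
      (fun x _ => by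
        beta_reduce
        rw [c_comm_del_self h hl, pow_two]
        exact h2 _)
      (fun x _ w _ h0 => by
        beta_reduce
        have h1 := (a0_zero_iff h hl w).1 h0
        have h3 : c ⁅x, del α w⁆ = 0 := c_comm_of_comm h (h.central h1 x).symm
        rw [h3, h0]
        simp)
      (fun x _ y _ => by
        beta_reduce
        rw [h.del_rho, c_comm_rho h (hl.comm_fix _ _), a0_rho h hl, a0_rho h hl, frobenius_def]
        ring)
      x (Subgroup.mem_top _) y (Subgroup.mem_top _)
  have h3 := h2 (a0 α c x * a0 α c y)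
  have : (c ⁅x, del α y⁆) ^ 2 + a0 α c x * a0 α c y = a0 α c x * a0 α c y + a0 α c x * a0 α c y := by
    rw [key, h3]
  exact add_right_cancel this

theorem nondeg_of {x w : G} (hx : ¬ InN α x) (hw : InN α w) (hw1 : α w ≠ w) : x * w ≠ w * x := by
  intro hcomm
  obtain ⟨y, hy⟩ := a0_surj h hl ⟨x, hx⟩ (c (del α w))
  have hz := h.InN_eq (InN_del h hl y) hw hy
  have e : w = del α y * ((del α y)⁻¹ * w) := by group
  have h1 : ⁅x, w⁆ = ⁅x, del α y⁆ := by
    conv_lhs => rw [e]
    exact comm_eq_of_central (h.central hz)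
  have h2 := F0 h hl x y
  rw [← h1, commutatorElement_eq_one_iff_mul_comm.mpr hcomm, h.c_one] at h2
  have h3 : a0 α c x ≠ 0 := fun h0 => hx ((a0_zero_iff h hl x).1 h0)
  have h4 : a0 α c y ≠ 0 := by
    rw [hy]
    exact h.e_ne_zero hw hw1
  have h5 := mul_ne_zero h3 h4
  rw [← h2] at h5
  simp at h5

end cl

variable [Finite K]

theorem exists_not_InN (hna : ∃ x y : G, x * y ≠ y * x) : ∃ x, ¬ InN α x := by
  by_contra hcon
  push Not at hcon
  obtain ⟨x, y, hxy⟩ := hna
  exact hxy (N_comm h (hcon x) (hcon y))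

/-- The case `[G,G] ≤ C`. -/
theorem str_of_comm (hcomm : ∀ x y : G, α ⁅x, y⁆ = ⁅x, y⁆) (hna : ∃ x y : G, x * y ≠ y * x) :
    Str α := by
  have hsq : ∀ x : G, α (x * x) = x * x := by
    intro x
    by_contra hx
    have hxc : x * x ∈ Subgroup.center G := by
      rw [Subgroup.mem_center_iff]
      intro y
      have h1 : ⁅x * x, y⁆ = 1 := by
        rw [comm_mul_left (h.central (hcomm x y)), h.sq_eq_one (hcomm x y)]
      exact (commutatorElement_eq_one_iff_mul_comm.mp h1).symm
    obtain ⟨w, hw, hw1, hw2⟩ := h.exists_N_in (Subgroup.center G) (by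
      intro a ha
      rw [Subgroup.mem_center_iff] at ha ⊢
      intro g
      have := ha (α.symm g)
      have h2 := congrArg α this
      simpa using h2) hxc hx
    have hall : ∀ w', InN α w' → ∀ y, w' * y = y * w' := by
      intro w' hw' y
      have h1 := h.N_le (Subgroup.center G) (fun z hz => by
        rw [Subgroup.mem_center_iff]
        intro g
        exact (h.central hz g).symm) (by
        intro a ha
        rw [Subgroup.mem_center_iff] at ha ⊢
        intro g
        have := ha (ρ.symm g)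
        have h2 := congrArg ρ this
        simpa using h2) hw hw2 hw1 hw'
      exact (Subgroup.mem_center_iff.mp h1 y).symm
    obtain ⟨a, b, hab⟩ := hna
    exact hab (abelian_of_N_central h hcomm hall a b)
  have hl : Cl2 α := ⟨hcomm, hsq⟩
  exact { hl with nondeg := fun x w hx hw hw1 => nondeg_of h hl hx hw hw1 }

end Cfsg.Agent.Lib.Sing.Two
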